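import Cfsg.Agent.Lib.Cusp.Mackey
import Cfsg.Agent.Lib.GLC.Mat
import Cfsg.Agent.Lib.Char.Central

/-!
# Frobenius reciprocity for parabolic induction; characters
-/

set_option autoImplicit false

namespace Cfsg.Lib.Cusp

open Module LinearMap Cfsg.Lib.GLC Cfsg.Lib.Char
open Submodule hiding fst snd
open Finset hiding range
open scoped ComplexConjugate BigOperators

universe u

variable {F : Type u} [Field F] {V A C : Type u} [AddCommGroup V] [Module F V] [AddCommGroup A]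
  [Module F A] [AddCommGroup C] [Module F C]

theorem tri_injective : Function.Injective fun p : End F A × (C →ₗ[F] A) × End F C => tri p.1 p.2.1 p.2.2 :=
  fun _ _ e => Prod.ext (LinearMap.ext fun v => by simpa using LinearMap.congr_fun e (v, 0)) (Prod.ext
    (LinearMap.ext fun v => by simpa using congrArg Prod.fst (LinearMap.congr_fun e (0, v)))
    (LinearMap.ext fun v => by simpa using congrArg Prod.snd (LinearMap.congr_fun e (0, v))))

theorem exists_tri {g : End F (A × C)} (h : ∀ v ∈ range (inl F A C), g v ∈ range (inl F A C)) :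
    ∃ x Φ y, tri x Φ y = g := by
  refine ⟨fst F A C ∘ₗ g ∘ₗ inl F A C, fst F A C ∘ₗ g ∘ₗ inr F A C, snd F A C ∘ₗ g ∘ₗ inr F A C,
    LinearMap.ext fun v => ?_⟩
  have h1 : (g (v.1, 0)).2 = 0 := by simpa [range_inl] using h (v.1, 0) ⟨_, rfl⟩
  conv_rhs => rw [show v = (v.1, 0) + (0, v.2) by simp, map_add]
  exact Prod.ext rfl (by simp [h1])

/-- The parabolic subgroup in block coordinates. -/
def Par (F A C : Type u) [Field F] [AddCommGroup A] [Module F A] [AddCommGroup C] [Module F C] :=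
  (End F A)ˣ × (C →ₗ[F] A) × (End F C)ˣ

instance instMulPar : Mul (Par F A C) :=
  ⟨fun p q => (p.1 * q.1, p.1.1 ∘ₗ q.2.1 + p.2.1 ∘ₗ q.2.2.1, p.2.2 * q.2.2)⟩

/-- The endomorphism given by block coordinates. -/
def Par.val (p : Par F A C) : End F (A × C) := tri p.1.1 p.2.1 p.2.2.1

theorem Par.val_mul (p q : Par F A C) : (p * q).val = p.val * q.val := (tri_mul ..).symm

theorem Par.val_injective : Function.Injective (Par.val : Par F A C → _) := fun _ _ h => by
  have h3 := tri_injective (a₁ := (_, _, _)) (a₂ := (_, _, _)) h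
  simp only [Prod.mk.injEq, Units.val_inj] at h3
  exact Prod.ext h3.1 (Prod.ext h3.2.1 h3.2.2)

instance instGroupPar : Group (Par F A C) :=
  letI : One (Par F A C) := ⟨(1, 0, 1)⟩
  letI : Inv (Par F A C) := ⟨fun p => (p.1⁻¹, -((p.1⁻¹).1 ∘ₗ p.2.1 ∘ₗ (p.2.2⁻¹).1), p.2.2⁻¹)⟩
  .ofLeftAxioms (fun _ _ _ => Par.val_injective (by simp only [Par.val_mul, mul_assoc]))
    (fun _ => Prod.ext (one_mul _) (Prod.ext (add_zero _) (one_mul _)))
    fun p => Prod.ext (inv_mul_cancel _) (Prod.ext (LinearMap.ext fun v => by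
      have : (p.2.2⁻¹).1 (p.2.2.1 v) = v := LinearMap.congr_fun p.2.2.inv_mul v
      change (p.1⁻¹).1 (p.2.1 v) + -((p.1⁻¹).1 (p.2.1 ((p.2.2⁻¹).1 (p.2.2.1 v)))) = 0
      rw [this, add_neg_cancel]) (inv_mul_cancel _))

/-- The inclusion of the parabolic subgroup. -/
def Par.hom : Par F A C →* (End F (A × C))ˣ :=
  (⟨⟨Par.val, tri_one⟩, Par.val_mul⟩ : Par F A C →* End F (A × C)).toHomUnits

noncomputable instance instFintypePar [Finite A] [Finite C] : Fintype (Par F A C) :=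
  inferInstanceAs (Fintype ((End F A)ˣ × (C →ₗ[F] A) × (End F C)ˣ))

variable [Finite V] [Finite A] [Finite C] {φ ψ π : Ty F → ℂ}

theorem sum_units {h : End F A → ℂ} (h0 : ∀ x, h x ≠ 0 → IsUnit x) : ∑ x : (End F A)ˣ, h x = ∑ x, h x :=
  Fintype.sum_of_injective _ Units.val_injective _ _ (fun x e => by_contra fun e' => e (h0 x e')) fun _ => rfl

theorem exists_equiv_map {W : Submodule F V} (h1 : finrank F W = finrank F A)
    (h2 : finrank F V = finrank F A + finrank F C) :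
    ∃ e : (A × C) ≃ₗ[F] V, (range (inl F A C)).map e.toLinearMap = W := by
  obtain ⟨W', hW⟩ := W.exists_isCompl
  have h3 := finrank_add_eq_of_isCompl hW
  let e1 := LinearEquiv.ofFinrankEq A W h1.symm
  refine ⟨(e1.prodCongr (.ofFinrankEq C W' (by omega))).trans (W.prodEquivOfIsCompl W' hW),
    le_antisymm ?_ fun v hv => ⟨(e1.symm ⟨v, hv⟩, 0), ⟨_, rfl⟩, by simp⟩⟩
  rintro _ ⟨_, ⟨v, rfl⟩, rfl⟩
  simp

theorem card_grass : Nat.card {W : Submodule F (A × C) // finrank F W = finrank F A} *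
    Nat.card (Par F A C) = Nat.card (End F (A × C))ˣ := by
  choose e he using fun W : {W : Submodule F (A × C) // finrank F W = finrank F A} =>
    exists_equiv_map (C := C) W.2 finrank_prod
  have h1 : ∀ W (p : Par F A C), (range (inl F A C)).map
      (GeneralLinearGroup.ofLinearEquiv (e W) * Par.hom p).1 = W.1 := fun W p => by
    rw [Units.val_mul, End.mul_eq_comp, Submodule.map_comp, ← he]
    congr 1
    refine le_antisymm (map_le_iff_le_comap.2 (ex_inl _ _ _).inv) ?_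
    rintro _ ⟨v, rfl⟩
    exact ⟨((p.1⁻¹).1 v, 0), ⟨_, rfl⟩, show tri _ _ _ _ = _ by simp [← End.mul_apply]⟩
  rw [← Nat.card_prod]
  refine Nat.card_eq_of_bijective (fun z => GeneralLinearGroup.ofLinearEquiv (e z.1) * Par.hom z.2)
    ⟨fun z w h => ?_, fun g => ?_⟩
  · dsimp only at h
    have h2 : z.1 = w.1 := Subtype.ext (by rw [← h1 _ z.2, ← h1 _ w.2, h])
    rw [h2] at h
    exact Prod.ext h2 (Par.val_injective (congrArg Units.val (mul_left_cancel h)))
  · let W : {W : Submodule F (A × C) // finrank F W = finrank F A} := ⟨(range (inl F A C)).map g.1, by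
      rw [← range_comp]
      exact finrank_range_of_inj (((End.isUnit_iff _).1 g.isUnit).1.comp inl_injective)⟩
    obtain ⟨x, Φ, y, h⟩ := exists_tri (g := ((GeneralLinearGroup.ofLinearEquiv (e W))⁻¹ * g).1)
      fun v hv => by
        obtain ⟨w, hw, h2⟩ := (he W).ge (mem_map_of_mem hv)
        exact (e W).symm_apply_eq.2 h2.symm ▸ hw
    obtain ⟨⟨x, rfl⟩, y, rfl⟩ := isUnit_tri.1 (h ▸ Units.isUnit _)
    exact ⟨(W, x, Φ, y), mul_eq_of_eq_inv_mul (Units.ext h)⟩

theorem sum_end_congr (e : V ≃ₗ[F] A) (h : Ty F → ℂ) :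
    ∑ x : End F V, h (ty x) = ∑ x : End F A, h (ty x) :=
  Fintype.sum_equiv (e.conjAlgEquiv F).toEquiv _ _ fun x => congrArg h (ty_eq_iff.2 (sim_conj e x))

theorem sum_hterm {W : Submodule F (A × C)} (h : finrank F W = finrank F A) :
    ∑ g, hterm φ ψ g W * π (ty g) = ∑ x : End F A, ∑ Φ, ∑ y : End F C, φ (ty x) * ψ (ty y) * π (ty (tri x Φ y)) := by
  obtain ⟨e, rfl⟩ := exists_equiv_map (C := C) h finrank_prod
  rw [← (e.conjAlgEquiv F).toEquiv.sum_comp, ← Fintype.sum_of_injective _ tri_injective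
    (fun p => φ (ty p.1) * ψ (ty p.2.2) * π (ty (tri p.1 p.2.1 p.2.2))) _ (fun g hg => ?_) fun p => ?_]
  · simp only [Fintype.sum_prod_type]
  · rw [hterm_map (f := g) e (by simp), hterm_of_not fun e => hg (by simpa using exists_tri e), zero_mul]
  · rw [hterm_map (f := tri p.1 p.2.1 p.2.2) e (by simp), (ex_inl _ _ _).hterm, ty_eq_iff.2 (sim_conj e _)]
    rfl

variable [Finite F] {a b n : ℕ}

theorem ip_eq_of_finrank (h : finrank F V = n) : ip n φ ψ =
    (Nat.card (End F V)ˣ : ℂ)⁻¹ * ∑ x : End F V, φ (ty x) * conj (ψ (ty x)) := by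
  let e := LinearEquiv.ofFinrankEq (R := F) V (Fin n → F) (by simpa)
  rw [ip, sum_end_congr e fun μ => φ μ * conj (ψ μ), cG,
    Nat.card_congr (Units.mapEquiv (e.conjAlgEquiv F).toMulEquiv).toEquiv]

theorem ip_adj (a b : ℕ) : ip b ψ (adj a φ π) = (Nat.card (Par F (Fin a → F) (Fin b → F)) : ℂ)⁻¹ *
    ∑ x : End F (Fin a → F), ∑ Φ, ∑ y : End F (Fin b → F), φ (ty x) * ψ (ty y) * conj (π (ty (tri x Φ y))) := by
  rw [Par, Nat.card_prod, Nat.card_prod]
  simp only [ip, adj_ty, cG, Fintype.expect_eq_sum_div_card, map_mul, map_sum, map_div₀,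
    map_inv₀, map_natCast, Complex.conj_conj, mul_sum, sum_div, sum_mul, Nat.cast_mul, mul_inv,
    Nat.card_eq_fintype_card]
  rw [sum_comm]
  refine sum_congr rfl fun x _ => sum_comm.trans (sum_congr rfl fun Φ _ => sum_congr rfl fun y _ => ?_)
  ring

/-- Frobenius reciprocity. -/
theorem ip_hall (h : Sup a φ) (b : ℕ) : ip (a + b) (hall φ ψ) π = ip b ψ (adj a φ π) := by
  classical
  have h1 := card_grass (F := F) (A := Fin a → F) (C := Fin b → F)
  rw [ip_eq_of_finrank (V := (Fin a → F) × (Fin b → F)) (by simp), ip_adj, ← h1]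
  simp only [hall_ty, sum_mul]
  rw [sum_comm, ← sum_filter_of_ne (p := fun W : Submodule F _ => finrank F W = finrank F (Fin a → F)) fun W _ e => ?_,
    sum_congr rfl fun W hW => sum_hterm (π := fun μ => conj (π μ)) (mem_filter.1 hW).2, sum_const,
    ← Fintype.card_subtype, ← Nat.card_eq_fintype_card, nsmul_eq_mul, Nat.cast_mul, mul_inv,
    mul_right_comm, inv_mul_cancel_left₀ (Nat.cast_ne_zero.2 (left_ne_zero_of_mul (h1 ▸ Nat.card_pos.ne'))),
    mul_comm]
  obtain ⟨g, -, hg⟩ := exists_ne_zero_of_sum_ne_zero e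
  have h2 : ∀ v ∈ W, g v ∈ W := by_contra fun e => hg (by rw [hterm_of_not e, zero_mul])
  rw [hterm, dif_pos h2] at hg
  simpa using (h _ _ (left_ne_zero_of_mul (left_ne_zero_of_mul hg))).2

theorem conj_ip (n : ℕ) (φ ψ : Ty F → ℂ) : conj (ip n φ ψ) = ip n ψ φ := by
  simp [ip, cG, mul_comm]

theorem ip_sub (n : ℕ) (φ φ' ψ : Ty F → ℂ) : ip n (φ - φ') ψ = ip n φ ψ - ip n φ' ψ := by
  simp [ip, sub_mul, mul_sub]

theorem ip_sum {ι : Type*} (s : Finset ι) (c : ι → ℂ) (φ : ι → Ty F → ℂ) (ψ : Ty F → ℂ) :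
    ip n (∑ i ∈ s, c i • φ i) ψ = ∑ i ∈ s, c i * ip n (φ i) ψ := by
  simp only [ip, Finset.sum_apply, Pi.smul_apply, smul_eq_mul, sum_mul, mul_sum]
  exact sum_comm.trans (sum_congr rfl fun _ _ => sum_congr rfl fun _ _ => by ring)

theorem Sup.ip_eq (h : Sup n φ) : ip n φ ψ =
    classInner (fun g : (End F (Fin n → F))ˣ => φ (ty g.1)) fun g => ψ (ty g.1) := by
  rw [classInner, ip, cG, sum_units (h := fun x => φ (ty x) * conj (ψ (ty x)))
    fun x hx => (h _ x (left_ne_zero_of_mul hx)).1]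

theorem Sup.eq_zero (h : Sup n φ) (h1 : ∀ g : (End F (Fin n → F))ˣ, φ (ty g.1) = 0) : φ = 0 :=
  ext_ty fun _ f => by_contra fun e => by
    obtain ⟨⟨g, rfl⟩, h2⟩ := h _ _ e
    obtain rfl : _ = n := (finrank_fin_fun F).symm.trans h2
    exact e (h1 g)

/-- Inductions with cuspidal first factors commute. -/
theorem hall_comm {ρ κ τ : Ty F → ℂ} (hρ : IsCusp ρ) (hκ : IsCusp κ) (h1 : Sup a ρ) (h2 : Sup b κ)
    (ha : 0 < a) (hb : 0 < b) (h : Sup n τ) : hall ρ (hall κ τ) = hall κ (hall ρ τ) := by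
  induction n using Nat.strong_induction_on generalizing τ with
  | _ n ih =>
  have key : ∀ {c : ℕ} {θ : Ty F → ℂ}, IsCusp θ → 0 < c →
      adj c θ (hall ρ (hall κ τ) - hall κ (hall ρ τ)) = 0 := fun {c θ} hθ hc => by
    rw [adj_sub, adj_hall hρ hθ hc, adj_hall hκ hθ hc, adj_hall hκ hθ hc, adj_hall hρ hθ hc, hall_add,
      hall_add, hall_smul, hall_smul]
    rcases lt_or_ge n c with h3 | h3
    · have h0 : ∀ φ : Ty F → ℂ, hall φ 0 = 0 := fun φ => (hallL φ).map_zero
      simp [h.adj_eq_zero h3, h0, add_comm]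
    · rw [ih (n - c) (by omega) (Sup.adj (by rwa [Nat.add_sub_cancel' h3]))]
      abel
  have h3 : Sup (a + (b + n)) (hall ρ (hall κ τ) - hall κ (hall ρ τ)) :=
    (h1.hall (h2.hall h)).sub (add_left_comm a b n ▸ h2.hall (h1.hall h))
  refine sub_eq_zero.1 (h3.eq_zero (congrFun (classInner_self_eq_zero_iff.1 ?_)))
  rw [← h3.ip_eq, ip_sub, ip_hall h1, key hρ ha, add_left_comm, ip_hall h2 (a + n), key hκ hb]
  simp [ip]

/-- `φ` is a character in every degree. -/
def Ch (φ : Ty F → ℂ) : Prop := ∀ (V : Type u) [AddCommGroup V] [Module F V] [Finite V],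
  IsCharacter (End F V)ˣ fun g => φ (ty g.1)

theorem exists_ip_hall (h : Sup a φ) (h' : Sup b ψ) (h1 : Ch φ) (h2 : Ch ψ) (h3 : Ch π) :
    ∃ k : ℕ, ip (a + b) (hall φ ψ) π = k := by
  obtain ⟨k, hk⟩ := (((h1 (Fin a → F)).comp (MonoidHom.mk' (fun p : Par F _ (Fin b → F) => p.1)
    fun _ _ => rfl)).mul ((h2 (Fin b → F)).comp (MonoidHom.mk' (fun p => p.2.2)
      fun _ _ => rfl))).exists_inner_eq_nat ((h3 _).comp Par.hom)
  refine ⟨k, ?_⟩
  rw [← hk, ip_hall h, ip_adj, classInner, ← sum_units fun x hx => ?_]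
  · congr 1
    refine .symm ((Fintype.sum_prod_type ..).trans (sum_congr rfl fun x _ =>
      (Fintype.sum_prod_type ..).trans (sum_congr rfl fun Φ _ => ?_)))
    exact sum_units (h := fun y => φ (ty x.1) * ψ (ty y) * conj (π (ty (tri x.1 Φ y))))
      fun y hy => (h' _ _ (right_ne_zero_of_mul (left_ne_zero_of_mul hy))).1
  · exact by_contra fun e => hx (by simp [of_not_not (mt (fun e => (h _ x e).1) e)])

omit [Finite F] in
theorem isClassFunction_ty (φ : Ty F → ℂ) : IsClassFunction (End F V)ˣ fun g => φ (ty g.1) :=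
  isClassFunction_iff_isConj.2 fun _ _ h =>
    congrArg φ (ty_eq_iff.2 (sim_iff_isConj.2 (isConj_units_iff.1 h)))

open Classical in
/-- A class function of one general linear group, extended by zero. -/
noncomputable def lift (χ : (End F (Fin n → F))ˣ → ℂ) : Ty F → ℂ :=
  fun μ => if h : ∃ g : (End F (Fin n → F))ˣ, ty g.1 = μ then χ h.choose else 0

variable {χ : (End F (Fin n → F))ˣ → ℂ}

theorem lift_ty (h : IsClassFunction _ χ) (g : (End F (Fin n → F))ˣ) : lift χ (ty g.1) = χ g := by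
  have h1 : ∃ g' : (End F (Fin n → F))ˣ, ty g'.1 = ty g.1 := ⟨g, rfl⟩
  rw [lift, dif_pos h1]
  exact h.eq_of_isConj (isConj_units_iff.2 (sim_iff_isConj.1 (ty_eq_iff.1 h1.choose_spec)))

theorem lift_irr (χ : IrrCharacter (End F (Fin n → F))ˣ) (g : (End F (Fin n → F))ˣ) :
    lift χ.1 (ty g.1) = χ.1 g := lift_ty χ.2.isClassFunction g

theorem sup_lift : Sup n (lift χ) := fun _ _ _ _ f hf => by
  obtain ⟨g, hg⟩ : ∃ g : (End F (Fin n → F))ˣ, ty g.1 = ty f := by_contra fun e => hf (dif_neg e)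
  exact ⟨(ty_eq_iff.1 hg).isUnit_iff.1 g.isUnit, by simpa using (ty_eq_iff.1 hg).finrank_eq.symm⟩

theorem ch_lift (h : IsCharacter _ χ) : Ch (lift χ) := fun V _ _ _ => by
  by_cases h1 : finrank F V = n
  · let e := LinearEquiv.ofFinrankEq (R := F) V (Fin n → F) (by simpa)
    convert h.comp (Units.map (e.conjAlgEquiv F).toMulEquiv.toMonoidHom) using 2 with g
    rw [← lift_ty h.isClassFunction, ty_eq_iff.2 (sim_conj e g.1)]
    rfl
  · convert isCharacter_zero using 2 with g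
    exact by_contra fun e => h1 (sup_lift _ _ e).2

theorem Sup.eq_sum (h : Sup n φ) :
    φ = ∑ χ : IrrCharacter (End F (Fin n → F))ˣ, ip n φ (lift χ.1) • lift χ.1 := ext_ty fun _ f => by
  by_cases h1 : ∃ g : (End F (Fin n → F))ˣ, ty g.1 = ty f
  · obtain ⟨g, hg⟩ := h1
    simp only [← hg, Finset.sum_apply, Pi.smul_apply, h.ip_eq, lift_irr]
    exact (isClassFunction_ty φ).apply_eq_sum_irr g
  · simp only [Finset.sum_apply, Pi.smul_apply, lift, dif_neg h1, smul_zero, sum_const_zero]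
    by_contra e
    obtain ⟨⟨g, rfl⟩, h2⟩ := h _ _ e
    obtain rfl : _ = n := (finrank_fin_fun F).symm.trans h2
    exact h1 ⟨g, rfl⟩

open Classical in
theorem ip_lift (χ χ' : IrrCharacter (End F (Fin n → F))ˣ) :
    ip n (lift χ.1) (lift χ'.1) = if χ = χ' then 1 else 0 := by
  simp only [sup_lift.ip_eq, lift_irr]
  exact irr_inner_eq_ite χ χ'

end Cfsg.Lib.Cusp
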