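import Cfsg.Agent.Lib.GLC.Types

/-!
# Class functions on all general linear groups at once; parabolic induction and restriction
-/

set_option autoImplicit false

namespace Cfsg.Lib.Cusp

open Module Polynomial LinearMap Cfsg.Lib.GLC Submodule Finset
open scoped ComplexConjugate BigOperators

universe u

theorem expect_surj {G H : Type*} [AddGroup G] [AddGroup H] [Fintype G] [Fintype H] (h : G →+ H)
    (hs : Function.Surjective h) (f : H → ℂ) : 𝔼 x, f (h x) = 𝔼 y, f y := by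
  obtain ⟨s, hs⟩ := hs.hasRightInverse
  calc 𝔼 x, f (h x) = 𝔼 y, 𝔼 x, f (h (x + s y)) := by
        rw [← Fintype.expect_const (ι := H) (𝔼 x, f (h x))]
        exact expect_congr rfl fun y _ => (Fintype.expect_equiv (Equiv.addRight (s y)) _ _ fun _ => rfl).symm
    _ = 𝔼 _x : G, 𝔼 y, f y := by
        rw [expect_comm]
        exact expect_congr rfl fun x _ =>
          Fintype.expect_equiv (Equiv.addLeft (h x)) _ _ fun y => by simp [hs y]
    _ = _ := Fintype.expect_const _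

theorem conj_expect {G : Type*} [Fintype G] (f : G → ℂ) : conj (𝔼 x, f x) = 𝔼 x, conj (f x) := by
  simp [Fintype.expect_eq_sum_div_card]

variable {F : Type u} [Field F] {V A B C D : Type u} [AddCommGroup V] [Module F V] [AddCommGroup A]
  [Module F A] [AddCommGroup B] [Module F B] [AddCommGroup C] [Module F C] [AddCommGroup D] [Module F D]

noncomputable scoped instance instFintypeHom [Finite A] [Finite C] : Fintype (C →ₗ[F] A) :=
  @Fintype.ofFinite _ (Finite.of_injective _ DFunLike.coe_injective)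

noncomputable scoped instance instFintypeSub [Finite A] : Fintype (Submodule F A) := Fintype.ofFinite _

scoped instance instFiniteQuot [Finite A] (W : Submodule F A) : Finite (A ⧸ W) :=
  Finite.of_surjective _ W.mkQ_surjective

noncomputable scoped instance instFintypeUnits [Finite A] : Fintype (End F A)ˣ := Fintype.ofFinite _

/-- The block triangular endomorphism. -/
def tri (x : End F A) (Φ : C →ₗ[F] A) (y : End F C) : End F (A × C) := (x.coprod Φ).prod (y ∘ₗ snd F A C)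

@[simp] theorem tri_apply (x : End F A) (Φ : C →ₗ[F] A) (y : End F C) (v : A × C) :
    tri x Φ y v = (x v.1 + Φ v.2, y v.2) := rfl

theorem tri_mul (x x' : End F A) (Φ Φ' : C →ₗ[F] A) (y y' : End F C) :
    tri x Φ y * tri x' Φ' y' = tri (x * x') (x ∘ₗ Φ' + Φ ∘ₗ y') (y * y') :=
  LinearMap.ext fun v => by simp [add_assoc]

@[simp] theorem tri_one : tri (1 : End F A) 0 (1 : End F C) = 1 := LinearMap.ext fun v => by simp

theorem isUnit_iff_of_exact [Finite V] {x : End F B} {f : End F V} {y : End F D} {i : B →ₗ[F] V}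
    {p : V →ₗ[F] D} (hi : Function.Injective i) (hp : Function.Surjective p) (h : range i = ker p)
    (h1 : ∀ b, i (x b) = f (i b)) (h2 : ∀ v, p (f v) = y (p v)) :
    (IsUnit f ↔ IsUnit x ∧ IsUnit y) ∧ finrank F V = finrank F B + finrank F D := by
  haveI := Finite.of_injective i hi
  haveI := Finite.of_surjective p hp
  refine ⟨by simp [isUnit_iff_isUnit_det, det_eq_of_exact hi hp h h1 h2], ?_⟩
  rw [← p.finrank_range_add_finrank_ker, ← h, finrank_range_of_inj hi, range_eq_top.2 hp, finrank_top,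
    add_comm]

theorem isUnit_tri [Finite A] [Finite C] {x : End F A} {Φ : C →ₗ[F] A} {y : End F C} :
    IsUnit (tri x Φ y) ↔ IsUnit x ∧ IsUnit y :=
  (isUnit_iff_of_exact inl_injective snd_surjective (range_inl ..) (by simp) (by simp)).1

/-- Similarity types. -/
def Ty (F : Type u) [Field F] : Type u := {μ : Multiset F[X] // ∀ P ∈ μ, PP P}

/-- The similarity type of an endomorphism. -/
noncomputable def ty [Finite V] (f : End F V) : Ty F := ⟨typ f, typ_pp f⟩

theorem ty_eq_iff [Finite V] [Finite A] {f : End F V} {g : End F A} : ty f = ty g ↔ Sim f g :=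
  Subtype.ext_iff.trans sim_iff_typ_eq.symm

theorem ty_congr [Finite V] [Finite A] {f : End F V} {g : End F A} (e : V ≃ₗ[F] A)
    (h : ∀ v, e (f v) = g (e v)) : ty f = ty g := ty_eq_iff.2 ⟨e, h⟩

variable [Finite F]

theorem exists_ty (μ : Ty F) : ∃ p : Σ n : ℕ, End F (Fin n → F), ty p.2 = μ := by
  obtain ⟨f, hf⟩ := exists_blocks_of_finrank (V := Fin (μ.1.map natDegree).sum → F)
    (fun P hP => (μ.2 P hP).monic) (by simp)
  exact ⟨⟨_, f⟩, Subtype.ext (hf.typ_eq μ.2)⟩

theorem ext_ty {φ ψ : Ty F → ℂ} (h : ∀ (n : ℕ) (f : End F (Fin n → F)), φ (ty f) = ψ (ty f)) : φ = ψ :=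
  funext fun μ => let ⟨p, hp⟩ := exists_ty μ; hp ▸ h _ p.2

/-- A family of functions of endomorphisms. -/
abbrev Fam (F : Type u) [Field F] :=
  ∀ (V : Type u) [AddCommGroup V] [Module F V] [Finite V], End F V → ℂ

/-- The function of the similarity type given by an invariant family. -/
noncomputable def mk (Ψ : Fam F) : Ty F → ℂ := fun μ => Ψ _ (exists_ty μ).choose.2

theorem mk_ty {Ψ : Fam F} (h : ∀ (V W : Type u) [AddCommGroup V] [Module F V] [Finite V] [AddCommGroup W]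
    [Module F W] [Finite W] (f : End F V) (g : End F W) (e : V ≃ₗ[F] W), (∀ v, e (f v) = g (e v)) →
      Ψ V f = Ψ W g) [Finite V] (f : End F V) : mk Ψ (ty f) = Ψ V f :=
  let ⟨e, he⟩ := ty_eq_iff.1 (exists_ty (ty f)).choose_spec
  h _ _ _ _ e he

omit [Finite F]

/-- A short exact sequence of endomorphisms, describing the invariant subspace `W`. -/
structure Ex (f : End F V) (W : Submodule F V) (x : End F B) (y : End F D) (i : B →ₗ[F] V)
    (p : V →ₗ[F] D) : Prop where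
  inj : Function.Injective i
  surj : Function.Surjective p
  range : range i = W
  ker : ker p = W
  hi : ∀ b, i (x b) = f (i b)
  hp : ∀ v, p (f v) = y (p v)

section
variable {f : End F V} {W : Submodule F V} {x : End F B} {y : End F D} {i : B →ₗ[F] V} {p : V →ₗ[F] D}

theorem Ex.inv (h : Ex f W x y i p) : ∀ v ∈ W, f v ∈ W := by
  rw [← h.range]
  rintro _ ⟨b, rfl⟩
  exact ⟨x b, h.hi b⟩

theorem Ex.sub (h : Ex f W x y i p) :
    ∃ e : B ≃ₗ[F] W, (∀ b, (e b : V) = i b) ∧ ∀ b, e (x b) = f.restrict h.inv (e b) := by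
  obtain rfl := h.range
  exact ⟨LinearEquiv.ofInjective i h.inj, fun _ => rfl, fun b => Subtype.ext (h.hi b)⟩

theorem Ex.quot (h : Ex f W x y i p) :
    ∃ e : (V ⧸ W) ≃ₗ[F] D, (∀ v, e (W.mkQ v) = p v) ∧ ∀ b, e (W.mapQ W f h.inv b) = y (e b) := by
  obtain rfl := h.ker
  refine ⟨p.quotKerEquivOfSurjective h.surj, fun _ => rfl, fun b => ?_⟩
  obtain ⟨v, rfl⟩ := Submodule.mkQ_surjective _ b
  exact h.hp v

end

open Classical in
/-- One term of the induced function. -/
noncomputable def hterm [Finite V] (φ ψ : Ty F → ℂ) (f : End F V) (W : Submodule F V) : ℂ :=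
  if h : ∀ v ∈ W, f v ∈ W then φ (ty (f.restrict h)) * ψ (ty (W.mapQ W f h)) else 0

variable {φ ψ : Ty F → ℂ}

theorem Ex.hterm [Finite V] [Finite B] [Finite D] {f : End F V} {W : Submodule F V} {x : End F B}
    {y : End F D} {i : B →ₗ[F] V} {p : V →ₗ[F] D} (h : Ex f W x y i p) :
    hterm φ ψ f W = φ (ty x) * ψ (ty y) := by
  obtain ⟨e1, -, h3⟩ := h.sub
  obtain ⟨e2, -, h4⟩ := h.quot
  rw [Cusp.hterm, dif_pos h.inv, ty_congr e1 h3, ty_congr e2 h4]

theorem hterm_of_not [Finite V] {f : End F V} {W : Submodule F V} (h : ¬ ∀ v ∈ W, f v ∈ W) :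
    hterm φ ψ f W = 0 := dif_neg h

theorem hterm_map [Finite V] [Finite A] {f : End F V} {g : End F A} (e : V ≃ₗ[F] A)
    (h : ∀ v, e (f v) = g (e v)) (W : Submodule F V) : hterm φ ψ g (W.map e.toLinearMap) = hterm φ ψ f W := by
  by_cases hW : ∀ v ∈ W, f v ∈ W
  · rw [hterm.eq_def φ ψ f, dif_pos hW]
    refine Ex.hterm (i := e.toLinearMap ∘ₗ W.subtype) (p := W.mkQ ∘ₗ e.symm.toLinearMap)
      ⟨e.injective.comp W.injective_subtype, W.mkQ_surjective.comp e.symm.surjective,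
      by rw [range_comp, range_subtype], by rw [ker_comp, ker_mkQ, map_equiv_eq_comap_symm],
      fun b => h _, fun v => ?_⟩
    obtain ⟨v, rfl⟩ := e.surjective v
    simp [← h]
  · rw [hterm_of_not hW, hterm_of_not fun h1 => hW fun v hv => by
      simpa [← h] using h1 _ (mem_map_of_mem hv)]

variable [Finite F]

/-- Parabolic induction. -/
noncomputable def hall (φ ψ : Ty F → ℂ) : Ty F → ℂ := mk fun _ _ _ _ f => ∑ W, hterm φ ψ f W

theorem hall_ty [Finite V] (f : End F V) : hall φ ψ (ty f) = ∑ W, hterm φ ψ f W :=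
  mk_ty (Ψ := fun _ _ _ _ f => ∑ W, hterm φ ψ f W) (fun _ _ _ _ _ _ _ _ _ _ e h =>
    Fintype.sum_equiv (orderIsoMapComap e).toEquiv _ _ fun W => (hterm_map e h W).symm) f

/-- The order of the general linear group. -/
noncomputable def cG (F : Type u) [Field F] (n : ℕ) : ℂ := Nat.card (End F (Fin n → F))ˣ

theorem cG_ne_zero (n : ℕ) : cG F n ≠ 0 := Nat.cast_ne_zero.2 Nat.card_pos.ne'

/-- The inner product in degree `n`. -/
noncomputable def ip (n : ℕ) (φ ψ : Ty F → ℂ) : ℂ :=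
  (cG F n)⁻¹ * ∑ x : End F (Fin n → F), φ (ty x) * conj (ψ (ty x))

omit [Finite F] in
theorem expect_tri_congr [Finite A] [Finite B] [Finite C] [Finite D] {x : End F A} {x' : End F B}
    {y : End F C} {y' : End F D} (e : A ≃ₗ[F] B) (h : ∀ v, e (x v) = x' (e v)) (e' : C ≃ₗ[F] D)
    (h' : ∀ v, e' (y v) = y' (e' v)) : 𝔼 Φ, φ (ty (tri x Φ y)) = 𝔼 Φ, φ (ty (tri x' Φ y')) :=
  Fintype.expect_equiv (e'.arrowCongr e).toEquiv _ _ fun Φ =>
    congrArg φ (ty_congr (e.prodCongr e') fun v => by simp [h, h'])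

/-- The adjoint of induction with first factor `ρ` of degree `a`. -/
noncomputable def adj (a : ℕ) (ρ π : Ty F → ℂ) : Ty F → ℂ := mk fun _ _ _ _ y =>
  (cG F a)⁻¹ * ∑ x : End F (Fin a → F), (𝔼 Φ, π (ty (tri x Φ y))) * conj (ρ (ty x))

theorem adj_ty [Finite C] (a : ℕ) (y : End F C) : adj a φ ψ (ty y) =
    (cG F a)⁻¹ * ∑ x : End F (Fin a → F), (𝔼 Φ, ψ (ty (tri x Φ y))) * conj (φ (ty x)) :=
  mk_ty (Ψ := fun _ _ _ _ y => (cG F a)⁻¹ * ∑ x : End F (Fin a → F),
    (𝔼 Φ, ψ (ty (tri x Φ y))) * conj (φ (ty x))) (fun _ _ _ _ _ _ _ _ _ _ e h =>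
      congrArg _ (sum_congr rfl fun x _ => by
        rw [expect_tri_congr (x' := x) (.refl F _) (fun _ => rfl) e h])) y

/-- Restriction with the second argument fixed. -/
noncomputable def rs [Finite C] (y : End F C) (π : Ty F → ℂ) : Ty F → ℂ :=
  mk fun _ _ _ _ x => 𝔼 Φ, π (ty (tri x Φ y))

theorem rs_ty [Finite A] [Finite C] (y : End F C) (x : End F A) :
    rs y φ (ty x) = 𝔼 Φ, φ (ty (tri x Φ y)) :=
  mk_ty (Ψ := fun _ _ _ _ x => 𝔼 Φ, φ (ty (tri x Φ y))) (fun _ _ _ _ _ _ _ _ _ _ e h =>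
    expect_tri_congr e h (.refl F _) fun _ => rfl) x

theorem ip_rs [Finite C] (a : ℕ) (y : End F C) : ip a (rs y ψ) φ = adj a φ ψ (ty y) := by
  simp only [ip, adj_ty, rs_ty]

/-- Support on the invertible elements of degree `n`. -/
def Sup (n : ℕ) (φ : Ty F → ℂ) : Prop := ∀ (V : Type u) [AddCommGroup V] [Module F V] [Finite V]
  (f : End F V), φ (ty f) ≠ 0 → IsUnit f ∧ finrank F V = n

variable {a b n : ℕ}

theorem Sup.hall (h : Sup a φ) (h' : Sup b ψ) : Sup (a + b) (hall φ ψ) := fun V _ _ _ f hf => by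
  obtain ⟨W, -, hW⟩ := exists_ne_zero_of_sum_ne_zero (hall_ty f ▸ hf)
  have h1 : ∀ v ∈ W, f v ∈ W := by_contra fun e => hW (hterm_of_not e)
  rw [hterm, dif_pos h1] at hW
  obtain ⟨h2, h3⟩ := h _ _ (left_ne_zero_of_mul hW)
  obtain ⟨h4, h5⟩ := h' _ _ (right_ne_zero_of_mul hW)
  obtain ⟨h6, h7⟩ := isUnit_iff_of_exact (x := f.restrict h1) (f := f) (y := W.mapQ W f h1)
    W.injective_subtype W.mkQ_surjective (by simp) (fun _ => rfl) fun _ => rfl
  exact ⟨h6.2 ⟨h2, h4⟩, by rw [h7, h3, h5]⟩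

theorem Sup.of_adj [Finite C] (h : Sup n ψ) {y : End F C} (hy : adj a φ ψ (ty y) ≠ 0) :
    IsUnit y ∧ a + finrank F C = n := by
  obtain ⟨x, -, hx⟩ := exists_ne_zero_of_sum_ne_zero (right_ne_zero_of_mul (adj_ty a y ▸ hy))
  obtain ⟨Φ, -, h1⟩ := exists_ne_zero_of_expect_ne_zero (left_ne_zero_of_mul hx)
  obtain ⟨h2, h3⟩ := h _ _ h1
  exact ⟨(isUnit_tri.1 h2).2, by simpa using h3⟩

theorem Sup.adj (h : Sup (a + b) ψ) : Sup b (adj a φ ψ) := fun _ _ _ _ _ hy =>
  ⟨(h.of_adj hy).1, Nat.add_left_cancel (h.of_adj hy).2⟩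

theorem Sup.adj_eq_zero (h : Sup n ψ) (ha : n < a) : Cusp.adj a φ ψ = 0 :=
  ext_ty fun _ _ => by_contra fun e => by have := (h.of_adj e).2; omega

theorem Sup.rs [Finite C] (h : Sup (a + finrank F C) φ) (y : End F C) : Sup a (rs y φ) :=
  fun _ _ _ _ x hx => by
    obtain ⟨Φ, -, h1⟩ := exists_ne_zero_of_expect_ne_zero (rs_ty y x ▸ hx)
    obtain ⟨h2, h3⟩ := h _ _ h1
    exact ⟨(isUnit_tri.1 h2).1, by simpa using h3⟩

omit [Finite F] in
theorem Sup.sub (h : Sup n φ) (h' : Sup n ψ) : Sup n (φ - ψ) := fun V _ _ _ f hf => by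
  by_cases h1 : φ (ty f) = 0
  · exact h' V f fun e => hf (by simp [h1, e])
  · exact h V f h1

theorem hall_add (φ ψ ψ' : Ty F → ℂ) : hall φ (ψ + ψ') = hall φ ψ + hall φ ψ' := ext_ty fun _ f => by
  simp only [Pi.add_apply, hall_ty, ← sum_add_distrib, hterm]
  exact sum_congr rfl fun W _ => by split_ifs <;> simp [mul_add]

theorem hall_smul (φ ψ : Ty F → ℂ) (c : ℂ) : hall φ (c • ψ) = c • hall φ ψ := ext_ty fun _ f => by
  simp only [Pi.smul_apply, hall_ty, smul_eq_mul, mul_sum, hterm]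
  exact sum_congr rfl fun W _ => by split_ifs <;> simp [mul_left_comm]

/-- Induction as a linear map in the second argument. -/
noncomputable def hallL (φ : Ty F → ℂ) : (Ty F → ℂ) →ₗ[ℂ] (Ty F → ℂ) where
  toFun := hall φ
  map_add' := hall_add φ
  map_smul' c ψ := hall_smul φ ψ c

theorem adj_sub (a : ℕ) (φ ψ ψ' : Ty F → ℂ) : adj a φ (ψ - ψ') = adj a φ ψ - adj a φ ψ' :=
  ext_ty fun _ f => by
    simp only [Pi.sub_apply, adj_ty, expect_sub_distrib, sub_mul, sum_sub_distrib, mul_sub]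

end Cfsg.Lib.Cusp
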