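import Cfsg.Agent.Lib.Cusp.Supp

/-!
# Degrees and number of the cuspidal characters
-/

set_option autoImplicit false

namespace Cfsg.Lib.Cusp

open Module LinearMap Cfsg.Lib.GLC Cfsg.Lib.Char
open Submodule hiding fst snd
open Finset hiding range
open scoped ComplexConjugate BigOperators

universe u

variable {F : Type u} [Field F] [Fintype F] {θ : AddChar F ℂ} {π : Ty F → ℂ} {a b n k : ℕ}

variable (F) in
/-- The degree of the Gelfand-Graev character. -/
noncomputable def gam (j : ℕ) : ℂ := ∏ i ∈ Finset.range j, ((Nat.card F : ℂ) ^ (i + 1) - 1)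

theorem gam_ne_zero (j : ℕ) : gam F j ≠ 0 := prod_ne_zero_iff.2 fun i _ => sub_ne_zero.2 (by
  exact_mod_cast (Nat.one_lt_pow i.succ_ne_zero Finite.one_lt_card).ne')

theorem wh_rec (hθ : θ ≠ 1) {z : ℕ → ℂ} (hz : ∀ (i : ℕ) (C : Type u) [AddCommGroup C] [Module F C] [Finite C],
    0 < i → i + finrank F C = n → mult θ i (rs (1 : End F C) π) = z i * gam F (finrank F C)) (j : ℕ)
    (h : k + j + 1 = n) : wh θ π k (F × (Fin j → F)) 1 (1, 0) = gam F j * ∑ i ∈ Ico (k + 1) (n + 1), z i := by
  induction j generalizing k with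
  | zero =>
    rw [← tri_one, ← sum_wh hθ, Fintype.sum_subsingleton _ 0, wh_zero, hz _ _ k.succ_pos (by simpa using h), ← h]
    simp [mul_comm]
  | succ j ih =>
    let e : (F × (Fin j → F)) ≃ₗ[F] Fin (j + 1) → F := .ofFinrankEq _ _ (by simp [add_comm])
    rw [wh_one hθ (c := e (1, 0)) (by simp), hz _ _ k.succ_pos (by simp; omega),
      ← wh_congr (y := 1) e fun _ => rfl, ih (by omega), sum_eq_sum_Ico_succ_bot (a := k + 1) (by omega)]
    simp only [gam, finrank_fin_fun, prod_range_succ, Nat.card_fun, Nat.card_eq_fintype_card (α := Fin _),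
      Fintype.card_fin, Nat.cast_pow]
    ring

theorem apply_one_eq (hθ : θ ≠ 1) {z : ℕ → ℂ} (hz : ∀ (i : ℕ) (C : Type u) [AddCommGroup C] [Module F C]
    [Finite C], 0 < i → i + finrank F C = n + 1 → mult θ i (rs (1 : End F C) π) = z i * gam F (finrank F C)) :
    π (ty (1 : End F (Fin (n + 1) → F))) = gam F n * ∑ i ∈ Ico 1 (n + 2), z i :=
  (congrArg π (ty_congr (f := 1) (g := (1 : End F (F × (Fin n → F)))) (.ofFinrankEq _ _ (by simp [add_comm]))
    fun _ => rfl)).trans
    (wh_rec (k := 0) hθ hz n (by rw [zero_add]))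

theorem IsCusp.apply_one (hθ : θ ≠ 1) (χ : Irr F (n + 1)) (h : IsCusp (lift χ.1)) :
    χ.1 1 = gam F n ∧ mult θ (n + 1) (lift χ.1) = 1 := by
  have h1 := apply_one_eq (π := lift χ.1) (n := n) (z := fun i => if i = n + 1 then mult θ i (lift χ.1) else 0) hθ
    fun i C _ _ _ hi e => by
      split_ifs with h2
      · haveI := finrank_zero_iff.1 (show finrank F C = 0 by omega)
        rw [← wh_zero, wh_subsingleton, finrank_zero_of_subsingleton, gam, prod_range_zero, mul_one]
      · haveI := nontrivial_of_finrank_pos (show 0 < finrank F C by omega)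
        haveI := Fin.pos_iff_nonempty.1 hi
        have h3 : Sup i (rs (1 : End F C) (lift χ.1)) := Sup.rs (by rw [e]; exact sup_lift) _
        rw [h3.mult_eq, h3.eq_zero fun g => (rs_ty ..).trans (h _ _ _ _)]
        simp [ip]
  rw [lift_one _ (by simp), sum_ite_eq', if_pos (by simp)] at h1
  have h2 := (mult_lift hθ χ).resolve_left fun e => χ.2.apply_one_ne_zero (by rw [h1, e, mul_zero])
  exact ⟨by rw [h1, h2, mul_one], h2⟩

theorem sum_Ico_mult (hθ : θ ≠ 1) (n : ℕ) :
    ∑ i ∈ Ico 1 (n + 1), ∑ ρ : Irr F i, mult θ i (lift ρ.1) = (Nat.card F : ℂ) ^ n - 1 := by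
  rcases n with _ | n
  · simp
  have h1 : Sup (n + 1) (∑ χ : Irr F (n + 1), mult θ (n + 1) (lift χ.1) • lift χ.1) := fun V _ _ _ f hf => by
    rw [Finset.sum_apply] at hf
    obtain ⟨χ, -, h⟩ := exists_ne_zero_of_sum_ne_zero hf
    exact sup_lift V f (right_ne_zero_of_mul h)
  have h2 := apply_one_eq (n := n) (z := fun i => ∑ ρ : Irr F i, mult θ i (lift ρ.1)) hθ
    (π := ∑ χ : Irr F (n + 1), mult θ (n + 1) (lift χ.1) • lift χ.1) fun i C _ _ _ hi e => by
      generalize n + 1 = m at h1 e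
      subst e
      rw [(h1.rs _).mult_eq, sum_mul]
      refine sum_congr rfl fun ρ _ => ?_
      rw [ip_rs_one h1 sup_lift, gam, ← sum_mult θ, mul_sum, sum_mul]
      refine sum_congr rfl fun σ _ => ?_
      have h3 := mult_hall (ρ := lift ρ.1) (σ := lift σ.1) (b := finrank F C) hθ sup_lift
      rw [(sup_lift.hall sup_lift).mult_eq] at h3
      rw [conj_ip, ip_sum, sum_congr rfl fun χ _ => ?_, h3]
      · rcases mult_lift hθ ρ with e | e <;> simp [e, mul_comm]
      · obtain ⟨k, hk⟩ := ip_nat ρ σ χ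
        rw [← conj_ip, hk, map_natCast, mul_comm]
  simp only [Finset.sum_apply, Pi.smul_apply, smul_eq_mul, lift_one _ (finrank_fin_fun F), mul_comm (mult _ _ _),
    sum_mult, prod_range_succ] at h2
  exact (mul_left_cancel₀ (gam_ne_zero n) h2).symm

theorem card_generic (hθ : θ ≠ 1) (n : ℕ) : Nat.card {χ : Irr F (n + 1) // mult θ (n + 1) (lift χ.1) = 1} =
    (Nat.card F - 1) * Nat.card F ^ n := by
  classical
  have h1 := sum_Ico_mult hθ (n + 1)
  rw [sum_Ico_succ_top (by omega), sum_Ico_mult hθ n, sum_congr rfl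
    (g := fun χ => if mult θ (n + 1) (lift χ.1) = 1 then 1 else 0) fun χ _ => by
      rcases mult_lift hθ χ with e | e <;> simp [e], sum_boole, ← Fintype.card_subtype,
    ← Nat.card_eq_fintype_card] at h1
  refine Nat.cast_injective (R := ℂ) ?_
  rw [Nat.cast_mul, Nat.cast_pred Nat.card_pos, Nat.cast_pow]
  linear_combination h1

end Cfsg.Lib.Cusp
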