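import Cfsg.Agent.Lib.Cusp.Count
import Cfsg.Agent.Lib.GLC.Unip

/-!
# The number of cuspidal characters
-/

set_option autoImplicit false

namespace Cfsg.Lib.Cusp

open Module LinearMap Cfsg.Lib.GLC Cfsg.Lib.Char Polynomial
open Submodule hiding fst snd
open Finset hiding range
open scoped ComplexConjugate BigOperators IntermediateField

universe u

variable {F : Type u} [Field F] [Fintype F] {θ : AddChar F ℂ} {φ φ' ψ : Ty F → ℂ} {n : ℕ}

theorem ip_smul_add (c : ℂ) : ip n (c • φ + φ') ψ = c * ip n φ ψ + ip n φ' ψ := by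
  simp [ip, add_mul, mul_add, sum_add_distrib, mul_assoc, ← mul_sum, mul_left_comm c (cG F n)⁻¹]

theorem ip_ne_zero_comm : ip n φ ψ ≠ 0 ↔ ip n ψ φ ≠ 0 := by rw [← conj_ip, _root_.map_ne_zero]

variable (F) in
/-- All irreducible characters of general linear groups. -/
abbrev II := Σ n, Irr F n

/-- Constituents of parabolically induced characters. -/
def Con (ρ σ π : II F) : Prop := ip π.1 (hall (lift ρ.2.1) (lift σ.2.1)) (lift π.2.1) ≠ 0

/-- Cuspidal characters. -/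
def Cu (ρ : II F) : Prop := 0 < ρ.1 ∧ IsCusp (lift ρ.2.1)

theorem Con.deg {ρ σ π : II F} (h : Con ρ σ π) : π.1 = ρ.1 + σ.1 := (sup_lift.hall sup_lift).eq_of_ip h

theorem eq_of_ip_lift {ρ σ : II F} (h : ip ρ.1 (lift σ.2.1) (lift ρ.2.1) ≠ 0) : ρ = σ := by
  obtain ⟨a, ρ⟩ := ρ
  obtain ⟨b, σ⟩ := σ
  obtain rfl : a = b := sup_lift.eq_of_ip h
  rw [of_not_not fun e => h ((ip_lift σ ρ).trans (if_neg e))]

theorem mult_nat (θ : AddChar F ℂ) (χ : Irr F n) : ∃ k : ℕ, mult θ n (lift χ.1) = k := (ch_irr χ).mult_nat θ n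

theorem ax (hθ : θ ≠ 1) : Ax Sigma.fst Cu (fun ρ : II F => mult θ ρ.1 (lift ρ.2.1) = 1) Con where
  deg := Con.deg
  pos h := h.1
  gen := by
    rintro ⟨n, ρ⟩ h
    obtain ⟨n, rfl⟩ := Nat.exists_eq_add_one.2 h.1
    exact (h.2.apply_one hθ ρ).2
  uni := by
    rintro ⟨a, ρ⟩ ⟨b, σ⟩ h1 h2
    have h3 := mult_hall (ρ := lift ρ.1) (σ := lift σ.1) (b := b) hθ sup_lift
    rw [(sup_lift.hall sup_lift).mult_eq, h1, h2, mul_one] at h3
    obtain ⟨π, -, h4⟩ := exists_ne_zero_of_sum_ne_zero (h3.trans_ne one_ne_zero)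
    refine ⟨⟨_, π⟩, ⟨(mult_lift hθ π).resolve_left (right_ne_zero_of_mul h4), left_ne_zero_of_mul h4⟩, ?_⟩
    rintro ⟨m, π'⟩ ⟨h5, h6⟩
    obtain rfl : m = a + b := h6.deg
    classical
    by_contra e
    replace h6 := mul_ne_zero h6 (h5.trans_ne one_ne_zero)
    choose k hk using fun χ : Irr F (a + b) => exists_nat_mul (ip_nat ρ σ χ) (mult_nat θ χ)
    simp only [hk, ← Nat.cast_sum, Nat.cast_eq_one, Nat.cast_ne_zero] at h3 h4 h6
    have := sum_le_sum_of_subset (f := k) (subset_univ {π', π})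
    rw [sum_pair fun e' => e (by rw [e'])] at this
    omega
  fac := by
    rintro ⟨a, ρ⟩ ⟨b, σ⟩ ⟨m, π⟩ h1 h2
    obtain rfl : m = a + b := h1.deg
    have h3 := mult_hall (ρ := lift ρ.1) (σ := lift σ.1) (b := b) hθ sup_lift
    rw [(sup_lift.hall sup_lift).mult_eq] at h3
    exact (mult_lift hθ σ).resolve_left (right_ne_zero_of_mul (h3.symm.trans_ne (sum_ne_zero_of_nat
      (fun χ => exists_nat_mul (ip_nat ρ σ χ) (mult_nat θ χ)) (mul_ne_zero h1 (h2.trans_ne one_ne_zero)))))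
  sup {π} h := let ⟨a, b, ρ, σ, h1, h2, h3⟩ := exists_support π.2 h; ⟨⟨a, ρ⟩, ⟨b, σ⟩, ⟨h1, h2⟩, h3⟩
  mac := by
    rintro ⟨a, ρ⟩ ⟨c, κ⟩ ⟨b, σ⟩ ⟨d, τ⟩ ⟨m, π⟩ hρ hκ h1 h2
    obtain rfl : m = a + b := h1.deg
    have h3 := sum_ne_zero_of_nat (fun χ : Irr F (a + b) => exists_nat_mul (ip_nat ρ σ χ) (b := ip (a + b)
      (lift χ.1) (hall (lift κ.1) (lift τ.1))) (let ⟨k, hk⟩ := ip_nat κ τ χ;
      ⟨k, by rw [← conj_ip, hk, map_natCast]⟩)) (mul_ne_zero h1 (ip_ne_zero_comm.1 h2))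
    rw [← (sup_lift.hall sup_lift).parseval, ip_hall sup_lift, adj_hall hκ.2 hρ.2 hρ.1, ip_ne_zero_comm,
      ip_smul_add] at h3
    by_cases h4 : ip b (hall (lift κ.1) (adj a (lift ρ.1) (lift τ.1))) (lift σ.1) = 0
    · rw [h4, add_zero] at h3
      exact .inl ⟨eq_of_ip_lift (left_ne_zero_of_mul h3), eq_of_ip_lift (right_ne_zero_of_mul h3)⟩
    rcases lt_or_ge d a with h5 | h5
    · rw [sup_lift.adj_eq_zero h5, show hall (lift κ.1) 0 = 0 from (hallL _).map_zero] at h4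
      simp [ip] at h4
    obtain ⟨e, rfl⟩ := Nat.exists_eq_add_of_le h5
    rw [sup_lift.adj.ip_hall_sum] at h4
    obtain ⟨υ, -, h6⟩ := exists_ne_zero_of_sum_ne_zero h4
    exact .inr ⟨⟨e, υ⟩, right_ne_zero_of_mul h6,
      (ip_hall sup_lift e).trans_ne (ip_ne_zero_comm.1 (left_ne_zero_of_mul h6))⟩
  com := by
    rintro ⟨a, ρ⟩ ⟨c, κ⟩ ⟨b, σ⟩ ⟨e, υ⟩ ⟨m, π⟩ hρ hκ h1 h2
    obtain rfl : b = c + e := h1.deg
    have h3 := sum_ne_zero_of_nat (fun χ => exists_nat_mul (ip_nat κ υ χ) (ip_nat ρ χ π)) (mul_ne_zero h1 h2)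
    rw [← (sup_lift.hall sup_lift).ip_hall_sum, hall_comm hρ.2 hκ.2 sup_lift sup_lift hρ.1 hκ.1 sup_lift,
      (sup_lift.hall sup_lift).ip_hall_sum] at h3
    obtain ⟨τ, -, h4⟩ := exists_ne_zero_of_sum_ne_zero h3
    exact ⟨⟨_, τ⟩, left_ne_zero_of_mul h4, right_ne_zero_of_mul h4⟩
  one := by
    refine ⟨⟨0, _, isIrrCharacter_one⟩, rfl, lift_one _ finrank_zero_of_subsingleton, ?_⟩
    rintro ⟨_, χ⟩ rfl
    haveI : IsMulCommutative (End F (Fin 0 → F))ˣ := ⟨⟨fun _ _ => Subsingleton.elim _ _⟩⟩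
    exact congrArg _ (Subtype.ext (funext fun g => Subsingleton.elim 1 g ▸ χ.2.apply_one_of_comm))

theorem card_ms_zero {I : Type*} {d : I → ℕ} (hd : ∀ x, 0 < d x) : Nat.card (MS d 0) = 1 :=
  Nat.card_eq_one_iff_exists.2 ⟨⟨0, rfl⟩, fun μ => Subtype.ext (Multiset.eq_zero_of_forall_notMem fun y hy =>
    (hd y).ne' (Multiset.sum_eq_zero_iff.1 μ.2 _ (Multiset.mem_map_of_mem d hy)))⟩

theorem card_ms_cusp (n : ℕ) :
    Nat.card (MS (fun ρ : {ρ : II F // Cu ρ} => ρ.1.1) (n + 1)) = (Nat.card F - 1) * Nat.card F ^ n := by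
  obtain ⟨θ, hθ⟩ := AddChar.exists_apply_ne_zero.2 (one_ne_zero (α := F))
  replace hθ : θ ≠ 1 := fun e => hθ (by rw [e, AddChar.one_apply])
  rw [Nat.card_congr ((ax hθ).nonempty_equiv _).some, ← card_generic hθ]
  refine (Nat.card_eq_of_bijective (fun χ => ⟨⟨_, χ.1⟩, χ.2, rfl⟩)
    ⟨fun _ _ e => Subtype.ext (sigma_mk_injective (congrArg Subtype.val e)), ?_⟩).symm
  rintro ⟨⟨m, χ⟩, h, e⟩
  obtain rfl : m = n + 1 := e
  exact ⟨⟨χ, h⟩, rfl⟩

theorem card_ms_poly (n : ℕ) : Nat.card (MS (fun P : {P : F[X] // (P.Monic ∧ Irreducible P) ∧ P.coeff 0 ≠ 0} =>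
    P.1.natDegree) (n + 1)) = (Nat.card F - 1) * Nat.card F ^ n := by
  classical
  have h1 : ∀ μ : Multiset {P : F[X] // (P.Monic ∧ Irreducible P) ∧ P.coeff 0 ≠ 0},
      ∀ P ∈ μ.map Subtype.val, P.Monic ∧ Irreducible P := fun μ P hP => by
    obtain ⟨P, -, rfl⟩ := Multiset.mem_map.1 hP
    exact P.2.1
  have h2 := fun μ => natDegree_multiset_prod_of_monic _ fun P hP => (h1 μ P hP).1
  rw [← Nat.card_units, Nat.card_congr unitsEquivNeZero, ← card_monic_coeff]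
  refine Nat.card_eq_of_bijective (fun μ => ⟨(μ.1.map Subtype.val).prod, ⟨monic_multiset_prod_of_monic _ _
    fun P _ => P.2.1.1, by rw [h2, Multiset.map_map]; exact μ.2⟩, ?_⟩) ⟨fun μ ν e => Subtype.ext
      (Multiset.map_injective Subtype.val_injective (eq_of_prod_eq (h1 _) (h1 _) (congrArg Subtype.val e))),
      fun P => ?_⟩
  · rw [coeff_zero_multiset_prod, Multiset.map_map]
    exact Multiset.prod_ne_zero fun e => let ⟨P, _, e⟩ := Multiset.mem_map.1 e; P.2.2 e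
  · obtain ⟨μ, h3, h4⟩ := exists_prod_eq P.2.1.1
    lift μ to Multiset {P : F[X] // (P.Monic ∧ Irreducible P) ∧ P.coeff 0 ≠ 0} using fun Q hQ =>
      ⟨h3 Q hQ, fun e => P.2.2 (X_dvd_iff.1 ((X_dvd_iff.2 e).trans (h4 ▸ Multiset.dvd_prod hQ)))⟩
    exact ⟨⟨μ, by rw [← P.2.1.2, ← h4, h2, Multiset.map_map]; rfl⟩, Subtype.ext h4⟩

theorem totient_le (n : ℕ)
    [Finite {P : {P : F[X] // (P.Monic ∧ Irreducible P) ∧ P.coeff 0 ≠ 0} // P.1.natDegree = n + 1}] : (Nat.card F ^ (n + 1) - 1).totient ≤ (n + 1) * Nat.card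
    {P : {P : F[X] // (P.Monic ∧ Irreducible P) ∧ P.coeff 0 ≠ 0} // P.1.natDegree = n + 1} := by
  classical
  obtain ⟨p, _⟩ := CharP.exists F
  haveI := Fact.mk (CharP.char_is_prime F p)
  let K := FiniteField.Extension F p (n + 1)
  cases nonempty_fintype Kˣ
  have h1 : Fintype.card Kˣ = Nat.card F ^ (n + 1) - 1 := by
    rw [← Nat.card_eq_fintype_card, Nat.card_units, FiniteField.natCard_extension]
  have h2 : ∀ x : {x : Kˣ // orderOf x = Fintype.card Kˣ}, (minpoly F x.1.1).natDegree = n + 1 := fun x => by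
    refine ((Field.primitive_element_iff_minpoly_natDegree_eq F _).1 (eq_top_iff.2 fun y _ => ?_)).trans
      (FiniteField.finrank_extension F p (n + 1))
    rcases eq_or_ne y 0 with rfl | hy
    · exact zero_mem _
    obtain ⟨k, hk⟩ := (Subgroup.eq_top_iff' _).1 (Subgroup.eq_top_of_card_eq (Subgroup.zpowers x.1)
      (by rw [Nat.card_zpowers, x.2, Nat.card_eq_fintype_card])) (Units.mk0 y hy)
    exact (show (x.1.1 : K) ^ k = y by simpa using congrArg Units.val hk) ▸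
      zpow_mem (IntermediateField.mem_adjoin_simple_self F _) k
  let f : {x : Kˣ // orderOf x = Fintype.card Kˣ} →
      {P : {P : F[X] // (P.Monic ∧ Irreducible P) ∧ P.coeff 0 ≠ 0} // P.1.natDegree = n + 1} := fun x =>
    ⟨⟨minpoly F x.1.1, ⟨minpoly.monic (.of_finite F _), minpoly.irreducible (.of_finite F _)⟩,
      minpoly.coeff_zero_ne_zero (.of_finite F _) x.1.ne_zero⟩, h2 x⟩
  cases nonempty_fintype {P : {P : F[X] // (P.Monic ∧ Irreducible P) ∧ P.coeff 0 ≠ 0} // P.1.natDegree = n + 1}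
  rw [← h1, ← IsCyclic.card_orderOf_eq_totient dvd_rfl, ← Fintype.card_subtype, Nat.card_eq_fintype_card]
  refine card_le_mul_card_image_of_maps_to (f := f) (fun _ _ => mem_univ _) _ fun P _ => ?_
  refine (card_le_card_of_injOn (fun x => x.1.1) (t := (P.1.1.aroots K).toFinset) (fun x hx => ?_)
    fun _ _ _ _ e => Subtype.ext (Units.ext e)).trans ((Multiset.toFinset_card_le _).trans
      ((card_roots' _).trans (natDegree_map_le.trans_eq P.2)))
  obtain rfl := (mem_filter.1 hx).2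
  simpa [f, minpoly.aeval] using minpoly.ne_zero (.of_finite F _)

theorem card_cusp (n : ℕ) : (Nat.card F ^ (n + 1) - 1).totient / (n + 1) ≤
    Nat.card {χ : Irr F (n + 1) // IsCusp (lift χ.1)} := by
  have h0 : ∀ n, (Nat.card F - 1) * Nat.card F ^ n ≠ 0 := fun n =>
    mul_ne_zero (Nat.sub_ne_zero_of_lt Finite.one_lt_card) (pow_ne_zero _ Nat.card_pos.ne')
  have h1 : ∀ ρ : {ρ : II F // Cu ρ}, 0 < ρ.1.1 := fun ρ => ρ.2.1
  have h2 : ∀ P : {P : F[X] // (P.Monic ∧ Irreducible P) ∧ P.coeff 0 ≠ 0}, 0 < P.1.natDegree :=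
    fun P => P.2.1.2.natDegree_pos
  haveI : ∀ n, Finite (MS (fun ρ : {ρ : II F // Cu ρ} => ρ.1.1) n) := fun n => Nat.finite_of_card_ne_zero (by
    rcases n with _ | n
    exacts [(card_ms_zero h1).trans_ne one_ne_zero, (card_ms_cusp n).trans_ne (h0 n)])
  haveI : ∀ n, Finite (MS (fun P : {P : F[X] // (P.Monic ∧ Irreducible P) ∧ P.coeff 0 ≠ 0} => P.1.natDegree) n) :=
    fun n => Nat.finite_of_card_ne_zero (by
      rcases n with _ | n
      exacts [(card_ms_zero h2).trans_ne one_ne_zero, (card_ms_poly n).trans_ne (h0 n)])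
  haveI := finite_deg (d := fun P : {P : F[X] // (P.Monic ∧ Irreducible P) ∧ P.coeff 0 ≠ 0} => P.1.natDegree) (n + 1)
  refine Nat.div_le_of_le_mul ((totient_le n).trans_eq (congrArg _ ?_))
  rw [← card_eq_of_ms h1 h2 fun n => by
    rcases n with _ | n
    exacts [(card_ms_zero h1).trans (card_ms_zero h2).symm, (card_ms_cusp n).trans (card_ms_poly n).symm]]
  refine (Nat.card_eq_of_bijective (fun χ => ⟨⟨⟨_, χ.1⟩, n.succ_pos, χ.2⟩, rfl⟩)
    ⟨fun _ _ e => Subtype.ext (sigma_mk_injective (congrArg (·.1.1) e)), ?_⟩).symm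
  rintro ⟨⟨⟨m, χ⟩, h⟩, e⟩
  obtain rfl : m = n + 1 := e
  exact ⟨⟨χ, h.2⟩, rfl⟩

end Cfsg.Lib.Cusp
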