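import Mathlib

/-!
# Supports: an abstract freeness argument and a graded count
-/

set_option autoImplicit false

namespace Cfsg.Lib.Cusp

open Multiset

variable {I : Type*}

/-- Multisets of total degree `n`. -/
abbrev MS (d : I → ℕ) (n : ℕ) := {μ : Multiset I // (μ.map d).sum = n}

theorem finite_deg {d : I → ℕ} (n : ℕ) [Finite (MS d n)] : Finite {x // d x = n} :=
  .of_injective (fun x => (⟨{x.1}, by simpa using x.2⟩ : MS d n))
    fun _ _ e => Subtype.ext (singleton_inj.1 (congrArg Subtype.val e))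

theorem card_ms {d : I → ℕ} (hd : ∀ x, 0 < d x) (n : ℕ) [Finite (MS d n)] : Nat.card (MS d n) =
    Nat.card {x // d x = n} + Nat.card (MS (fun p : {x // d x < n} => d p.1) n) := by
  let f : {x // d x = n} ⊕ MS (fun p : {x // d x < n} => d p.1) n → MS d n :=
    Sum.elim (fun x => ⟨{x.1}, by simpa using x.2⟩) fun μ => ⟨μ.1.map Subtype.val, by
      rw [map_map]; exact μ.2⟩
  have h2 : ∀ x μ, f (.inl x) ≠ f (.inr μ) := fun x μ e => by
    obtain ⟨p, -, hp⟩ := mem_map.1 (mem_of_le (congrArg Subtype.val e).le (mem_singleton_self x.1))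
    exact p.2.ne (by rw [hp, x.2])
  have h1 : Function.Injective f := by
    rintro (x | μ) (y | ν) e
    · exact congrArg _ (Subtype.ext (singleton_inj.1 (congrArg Subtype.val e)))
    · exact (h2 _ _ e).elim
    · exact (h2 _ _ e.symm).elim
    · exact congrArg _ (Subtype.ext (map_injective Subtype.val_injective (congrArg Subtype.val e)))
  haveI := finite_deg (d := d) n
  haveI := Finite.of_injective _ (h1.comp Sum.inr_injective)
  rw [← Nat.card_sum]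
  refine (Nat.card_eq_of_bijective f ⟨h1, fun ⟨μ, hμ⟩ => ?_⟩).symm
  by_cases h : ∀ x ∈ μ, d x < n
  · lift μ to Multiset {x // d x < n} using h
    exact ⟨.inr ⟨μ, by rwa [map_map] at hμ⟩, rfl⟩
  · push Not at h
    obtain ⟨x, hx, h⟩ := h
    obtain ⟨ν, rfl⟩ := exists_cons_of_mem hx
    rw [map_cons, sum_cons] at hμ
    obtain rfl : ν = 0 := eq_zero_of_forall_notMem fun y hy => by
      have := single_le_sum (fun _ _ => Nat.zero_le _) _ (mem_map_of_mem d hy)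
      have := hd y
      omega
    exact ⟨.inl ⟨x, by simpa using hμ⟩, rfl⟩

theorem card_eq_of_ms {J : Type*} {d : I → ℕ} {d' : J → ℕ} (hd : ∀ x, 0 < d x) (hd' : ∀ x, 0 < d' x)
    [∀ n, Finite (MS d n)] [∀ n, Finite (MS d' n)] (h : ∀ n, Nat.card (MS d n) = Nat.card (MS d' n)) (n : ℕ) :
    Nat.card {x // d x = n} = Nat.card {x // d' x = n} := by
  induction n using Nat.strong_induction_on with
  | _ n ih =>
  have e : ∀ c, {x : {x // d x < n} // d x.1 = c} ≃ {x : {x // d' x < n} // d' x.1 = c} := fun c => by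
    by_cases hc : c < n
    · haveI := finite_deg (d := d) c
      haveI := finite_deg (d := d') c
      exact (Equiv.subtypeSubtypeEquivSubtype fun e => e ▸ hc).trans ((Finite.card_eq.1 (ih c hc)).some.trans
        (Equiv.subtypeSubtypeEquivSubtype fun e => e ▸ hc).symm)
    · exact @Equiv.equivOfIsEmpty _ _ ⟨fun x => hc (x.2 ▸ x.1.2)⟩ ⟨fun x => hc (x.2 ▸ x.1.2)⟩
  have h1 := h n
  have h2 := Equiv.ofFiberEquiv_map e
  generalize Equiv.ofFiberEquiv e = E at h2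
  rw [card_ms hd, card_ms hd', Nat.card_congr (Equiv.subtypeEquiv ⟨map E, map E.symm, fun _ => by simp,
    fun _ => by simp⟩ (q := fun μ => (μ.map fun p => d' p.1).sum = n) fun μ => by simp [h2])] at h1
  exact Nat.add_right_cancel h1

/-- The properties of the relation "is a constituent of the product". -/
structure Ax (d : I → ℕ) (Cu Ge : I → Prop) (Con : I → I → I → Prop) : Prop where
  deg : ∀ {ρ σ π}, Con ρ σ π → d π = d ρ + d σ
  pos : ∀ {ρ}, Cu ρ → 0 < d ρ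
  gen : ∀ {ρ}, Cu ρ → Ge ρ
  uni : ∀ {ρ σ}, Ge ρ → Ge σ → ∃! π, Ge π ∧ Con ρ σ π
  fac : ∀ {ρ σ π}, Con ρ σ π → Ge π → Ge σ
  sup : ∀ {π}, 0 < d π → ∃ ρ σ, Cu ρ ∧ Con ρ σ π
  mac : ∀ {ρ κ σ τ π}, Cu ρ → Cu κ → Con ρ σ π → Con κ τ π → (ρ = κ ∧ σ = τ) ∨ ∃ υ, Con κ υ σ ∧ Con ρ υ τ
  com : ∀ {ρ κ σ υ π}, Cu ρ → Cu κ → Con κ υ σ → Con ρ σ π → ∃ τ, Con ρ υ τ ∧ Con κ τ π
  one : ∃ o, d o = 0 ∧ Ge o ∧ ∀ π, d π = 0 → π = o

/-- The support relation. -/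
inductive Sp (d : I → ℕ) (Cu : I → Prop) (Con : I → I → I → Prop) : Multiset {ρ // Cu ρ} → I → Prop
  | nil {π : I} : d π = 0 → Sp d Cu Con 0 π
  | cons {ρ : {ρ // Cu ρ}} {σ π : I} {μ : Multiset {ρ // Cu ρ}} :
      Con ρ σ π → Sp d Cu Con μ σ → Sp d Cu Con (ρ ::ₘ μ) π

variable {d : I → ℕ} {Cu Ge : I → Prop} {Con : I → I → I → Prop} (h : Ax d Cu Ge Con)
include h

theorem Ax.exists_sp (π : I) : ∃ μ, Sp d Cu Con μ π := by
  induction hn : d π using Nat.strong_induction_on generalizing π with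
  | _ n ih =>
  rcases n.eq_zero_or_pos with rfl | h0
  · exact ⟨0, .nil hn⟩
  obtain ⟨ρ, σ, h1, h2⟩ := h.sup (hn ▸ h0)
  obtain ⟨μ, hμ⟩ := ih _ (by have := h.deg h2; have := h.pos h1; omega) σ rfl
  exact ⟨_, .cons (ρ := ⟨ρ, h1⟩) h2 hμ⟩

theorem Ax.sum {μ : Multiset {ρ // Cu ρ}} {π : I} (h1 : Sp d Cu Con μ π) : (μ.map fun ρ => d ρ.1).sum = d π := by
  induction h1 with
  | nil e => simp [e]
  | cons h2 _ ih => simp [ih, h.deg h2]

theorem Ax.peel {μ : Multiset {ρ // Cu ρ}} {π : I} (h1 : Sp d Cu Con μ π) {κ ν} (e : μ = κ ::ₘ ν) :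
    ∃ τ, Con κ τ π ∧ Sp d Cu Con ν τ := by
  induction h1 generalizing ν with
  | nil => exact absurd e zero_ne_cons
  | @cons ρ σ π μ h2 h3 ih =>
    rcases cons_eq_cons.1 e with ⟨rfl, rfl⟩ | ⟨-, ξ, e1, rfl⟩
    · exact ⟨σ, h2, h3⟩
    · obtain ⟨υ, h4, h5⟩ := ih e1
      obtain ⟨τ, h6, h7⟩ := h.com ρ.2 κ.2 h4 h2
      exact ⟨τ, h7, .cons h6 h5⟩

theorem Ax.sp_unique {μ ν : Multiset {ρ // Cu ρ}} {π : I} (h1 : Sp d Cu Con μ π) (h2 : Sp d Cu Con ν π) :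
    μ = ν := by
  induction hn : d π using Nat.strong_induction_on generalizing π μ ν with
  | _ n ih =>
  subst hn
  rcases h1 with e | @⟨ρ, σ, _, μ, h3, h4⟩ <;> rcases h2 with e' | @⟨κ, τ, _, ν, h5, h6⟩
  · rfl
  · have := h.deg h5; have := h.pos κ.2; omega
  · have := h.deg h3; have := h.pos ρ.2; omega
  have h7 : d σ < d π := by have := h.deg h3; have := h.pos ρ.2; omega
  rcases h.mac ρ.2 κ.2 h3 h5 with ⟨e, rfl⟩ | ⟨υ, h8, h9⟩
  · rw [Subtype.ext e, ih _ h7 h4 h6 rfl]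
  · obtain ⟨ξ, hξ⟩ := h.exists_sp υ
    rw [ih _ h7 h4 (.cons h8 hξ) rfl, ih _ (by have := h.deg h5; have := h.pos κ.2; omega) h6 (.cons h9 hξ) rfl,
      cons_swap]

theorem Ax.exists_gen (μ : Multiset {ρ // Cu ρ}) : ∃! π, Ge π ∧ Sp d Cu Con μ π := by
  induction μ using Multiset.induction_on with
  | empty =>
    obtain ⟨o, h1, h2, h3⟩ := h.one
    exact ⟨o, ⟨h2, .nil h1⟩, fun π hπ => h3 π (by simpa using (h.sum hπ.2).symm)⟩
  | cons ρ μ ih =>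
    obtain ⟨σ, ⟨h1, h2⟩, h3⟩ := ih
    obtain ⟨π, ⟨h4, h5⟩, h6⟩ := h.uni (h.gen ρ.2) h1
    refine ⟨π, ⟨h4, .cons h5 h2⟩, fun π' hπ => ?_⟩
    obtain ⟨τ, h7, h8⟩ := h.peel hπ.2 rfl
    exact h6 _ ⟨hπ.1, h3 τ ⟨h.fac h7 hπ.1, h8⟩ ▸ h7⟩

theorem Ax.nonempty_equiv (n : ℕ) : Nonempty (MS (fun ρ : {ρ // Cu ρ} => d ρ) n ≃ {π // Ge π ∧ d π = n}) := by
  choose f hf hf' using h.exists_gen
  refine ⟨.ofBijective (fun μ => ⟨f μ.1, (hf _).1, (h.sum (hf _).2).symm.trans μ.2⟩) ⟨fun μ ν e =>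
    Subtype.ext (h.sp_unique (hf _).2 ((show f μ.1 = f ν.1 from congrArg Subtype.val e) ▸ (hf _).2)), fun π => ?_⟩⟩
  obtain ⟨μ, hμ⟩ := h.exists_sp π.1
  exact ⟨⟨μ, (h.sum hμ).trans π.2.2⟩, Subtype.ext (hf' _ _ ⟨π.2.1, hμ⟩).symm⟩

end Cfsg.Lib.Cusp
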