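import Cfsg.Agent.Lib.Cusp.Gel
import Cfsg.Agent.Lib.Linear.Unip
import Cfsg.Agent.Lib.CharDeg.FlagBruhat

/-!
# The Gelfand-Graev character of `GL_n` is multiplicity free
-/

set_option autoImplicit false

namespace Cfsg.Lib.Cusp

open Matrix Cfsg.Lib.Linear Cfsg.Lib.GLFlag Finset
open scoped BigOperators MatrixGroups

variable {n : ℕ} {F : Type*} [Field F]

theorem layered {s : Fin n → Fin n} (hs : Function.Injective s) {t : Fin n → F}
    (h : ∀ i j : Fin n, (i : ℕ) + 1 = j → s j < s i → (s j : ℕ) + 1 = s i ∧ t i = t j) (j : Fin n) :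
    s (s j) = j ∧ t (s j) = t j := by
  have h0 : ∀ i j : Fin n, (i : ℕ) ≠ j → (s i : ℕ) ≠ s j := fun i j e e' => e (congrArg _ (hs (Fin.ext e')))
  have h1 : ∀ (d : ℕ) (i i' k : Fin n), (i : ℕ) + 1 = i' → (k : ℕ) = i' + d → s i < s i' → s i < s k := by
    intro d
    induction d with
    | zero => exact fun i i' k _ e e' => (Fin.ext e : k = i') ▸ e'
    | succ d ih =>
      intro i i' k e e' e''
      have h2 := ih i i' ⟨i' + d, by omega⟩ e rfl e''
      have h3 := h ⟨i' + d, by omega⟩ k (by simp only; omega)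
      have := h0 i k (by omega)
      simp only [Fin.lt_def] at *
      omega
  have h2 : ∀ (d : ℕ) (i j l : Fin n), (j : ℕ) = i + d → s j ≤ s i → i ≤ l → l ≤ j →
      (s l : ℕ) + l = s i + i ∧ t l = t i := by
    intro d
    induction d with
    | zero => exact fun i j l e _ e1 e2 => by rw [show l = i from le_antisymm ((Fin.ext e : j = i) ▸ e2) e1]; simp
    | succ d ih =>
      intro i j l e e0 e1 e2
      rcases e1.eq_or_lt with rfl | e1
      · simp
      let i' : Fin n := ⟨i + 1, by omega⟩
      have h3 := h1 d i i' j rfl (by simp only [i']; omega)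
      have h4 := h0 i i' (by simp [i'])
      have h5 := h0 i j (by omega)
      obtain ⟨h6, h7⟩ := h i i' rfl (by simp only [Fin.lt_def, Fin.le_def] at *; omega)
      obtain ⟨h8, h9⟩ := ih i' j l (by simp only [i']; omega) (by simp only [Fin.le_def] at *; omega) e1 e2
      exact ⟨by simp only [i'] at *; omega, h9.trans h7.symm⟩
  rcases lt_trichotomy (s j) j with e | e | e
  · obtain ⟨k, hk, hk'⟩ : ∃ k, k < j ∧ j ≤ s k := by
      by_contra! hn
      have := card_le_card_of_injOn s (s := Iic j) (t := Iio j) (fun k hk => by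
        rcases (mem_Iic.1 hk).eq_or_lt with rfl | hk
        exacts [mem_Iio.2 e, mem_Iio.2 (hn k hk)]) hs.injOn
      simp at this
    obtain ⟨h3, h4⟩ := h2 (j - k) k j j (by omega) (by omega) hk.le le_rfl
    obtain ⟨h5, h6⟩ := h2 (j - k) k j (s j) (by omega) (by omega) (by omega) e.le
    exact ⟨by omega, h6.trans h4.symm⟩
  · simp [e]
  · obtain ⟨k, hk, hk'⟩ : ∃ k, j < k ∧ s k ≤ j := by
      by_contra! hn
      have := card_le_card_of_injOn s (s := Ici j) (t := Ioi j) (fun k hk => by
        rcases (mem_Ici.1 hk).eq_or_lt with rfl | hk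
        exacts [mem_Ioi.2 e, mem_Ioi.2 (hn k hk)]) hs.injOn
      simp at this
      omega
    obtain ⟨h3, -⟩ := h2 (k - j) j k k (by omega) (by omega) hk.le le_rfl
    obtain ⟨h5, h6⟩ := h2 (k - j) j k (s j) (by omega) (by omega) e.le (by omega)
    exact ⟨by omega, h6⟩

/-- The sum of the entries above the diagonal. -/
def sd : Matrix (Fin n) (Fin n) F →+ F where
  toFun M := ∑ i : Fin n, ∑ j : Fin n, if (i : ℕ) + 1 = j then M i j else 0
  map_zero' := by simp
  map_add' M N := by
    simp only [← sum_add_distrib]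
    exact sum_congr rfl fun _ _ => sum_congr rfl fun _ _ => by split_ifs <;> simp

theorem sd_apply (M : Matrix (Fin n) (Fin n) F) :
    sd M = ∑ i : Fin n, ∑ j : Fin n, if (i : ℕ) + 1 = j then M i j else 0 := rfl

theorem sd_congr {M N : Matrix (Fin n) (Fin n) F} (h : ∀ i j : Fin n, (i : ℕ) + 1 = j → M i j = N i j) :
    sd M = sd N := (sd_apply M).trans <| sum_congr rfl fun i _ => sum_congr rfl fun j _ => by
  split_ifs with e
  exacts [h i j e, rfl]

theorem sd_single (i j : Fin n) (c : F) : sd (single i j c) = if (i : ℕ) + 1 = j then c else 0 := by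
  rw [sd_apply, sum_eq_single_of_mem i (mem_univ _) fun k _ hk => by simp [single, hk.symm],
    sum_eq_single_of_mem j (mem_univ _) fun k _ hk => by simp [single, hk.symm], single_apply_same]

variable (n F) in
/-- The unitriangular group. -/
abbrev UU : Subgroup (GL (Fin n) F) := unipGL Fin.val

/-- The nondegenerate character of the unitriangular group. -/
noncomputable def lam (θ : AddChar F ℂ) : UU n F →* ℂˣ := MonoidHom.toHomUnits
  { toFun u := θ (sd (u.1.1 - 1))
    map_one' := by simp
    map_mul' u v := by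
      rw [← θ.map_add_eq_mul, ← map_add]
      refine congrArg θ (sd_congr fun i j e => ?_)
      have := (Raises.mul u.2 v.2) i j (by omega)
      rw [Subgroup.coe_mul, Units.val_mul, show u.1.1 * v.1.1 - 1 = u.1.1 - 1 + (v.1.1 - 1) +
        (u.1.1 - 1) * (v.1.1 - 1) by noncomm_ring, Matrix.add_apply, this, add_zero] }

theorem lam_apply (θ : AddChar F ℂ) (u : UU n F) : (lam θ u : ℂ) = θ (sd (u.1.1 - 1)) := rfl

/-- The unitriangular matrix `1 + N`. -/
noncomputable def mkU (N : Matrix (Fin n) (Fin n) F) (h : Raises Fin.val 1 N) : UU n F :=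
  ⟨GeneralLinearGroup.mkOfDetNeZero (1 + N) (by rw [h.det_one_add]; exact one_ne_zero), by
    simpa [mem_unipGL] using h⟩

@[simp] theorem mkU_val (N : Matrix (Fin n) (Fin n) F) (h : Raises Fin.val 1 N) : (mkU N h).1.1 = 1 + N := rfl

/-- The reflection in the second diagonal. -/
def refl2 (M : Matrix (Fin n) (Fin n) F) : Matrix (Fin n) (Fin n) F := of fun i j => M j.rev i.rev

theorem refl2_mul (M N : Matrix (Fin n) (Fin n) F) : refl2 (M * N) = refl2 N * refl2 M := by
  ext i j
  simp only [refl2, of_apply, mul_apply]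
  exact Fintype.sum_equiv Fin.revPerm _ _ fun k => by simp [mul_comm]

theorem refl2_one : refl2 (1 : Matrix (Fin n) (Fin n) F) = 1 := by
  ext i j
  simp [refl2, one_apply, eq_comm]

/-- The reflection in the second diagonal of an invertible matrix. -/
def reflG (g : GL (Fin n) F) : GL (Fin n) F :=
  ⟨refl2 g.1, refl2 (g⁻¹).1, by rw [← refl2_mul, g.inv_mul, refl2_one], by
    rw [← refl2_mul, g.mul_inv, refl2_one]⟩

theorem exists_diag {b : GL (Fin n) F} (hb : b ∈ upperTriangularGL n F) : ∃ (D : GL (Fin n) F) (t : Fin n → F),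
    (∀ i, t i ≠ 0) ∧ D.1 = diagonal t ∧ b * D⁻¹ ∈ UU n F ∧ D⁻¹ * b ∈ UU n F := by
  have h1 : ∏ i, b.1 i i ≠ 0 := det_of_upperTriangular hb ▸ (isUnits_det_units b).ne_zero
  let D := GeneralLinearGroup.mkOfDetNeZero (diagonal fun i => b.1 i i) (by rwa [det_diagonal])
  have h2 : Raises Fin.val 0 (D⁻¹).1 := Raises.inv fun i j e => diagonal_apply_ne _ (by omega)
  have h3 : Raises Fin.val 1 (b.1 - D.1) := fun i j e => by
    rcases (show j ≤ i by omega).eq_or_lt with rfl | e
    · simp [D]
    · rw [Matrix.sub_apply, hb e, zero_sub, neg_eq_zero]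
      exact diagonal_apply_ne _ e.ne'
  refine ⟨D, _, fun i => prod_ne_zero_iff.1 h1 i (mem_univ _), rfl, ?_, ?_⟩
  · simpa only [mem_unipGL, sub_mul, Units.mul_inv, Units.val_mul] using h3.mul h2
  · simpa only [mem_unipGL, mul_sub, Units.inv_mul, Units.val_mul] using h2.mul h3

theorem eq_of_char {θ : AddChar F ℂ} (hθ : θ ≠ 1) {a b : F} (h : ∀ c, θ (c * a) = θ (c * b)) : a = b := by
  by_contra e
  refine hθ (AddChar.ext _ _ fun t => ?_)
  have := h (t / (a - b))
  rwa [show t / (a - b) * a = t + t / (a - b) * b by field_simp [sub_ne_zero.2 e]; ring, θ.map_add_eq_mul,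
    mul_eq_right₀ (θ.val_isUnit _).ne_zero] at this

theorem gelfand_gl [Fintype F] {θ : AddChar F ℂ} (hθ : θ ≠ 1) {χ : GL (Fin n) F → ℂ}
    [Fintype (UU n F)] (h : IsIrrCharacter _ χ) :
    𝔼 u : UU n F, lam θ u * χ u = 0 ∨ 𝔼 u : UU n F, lam θ u * χ u = 1 := by
  have h0 : ∀ u : UU n F, (reflG u.1).1 - 1 = refl2 (u.1.1 - 1) := fun u => by
    nth_rw 1 [← refl2_one]; rfl
  have h1 : ∀ u : UU n F, reflG u.1 ∈ UU n F := fun u i j e => by
    rw [h0]
    exact u.2 _ _ (by simp only [Fin.val_rev]; omega)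
  refine gelfand (f := (UU n F).subtype) h reflG (fun _ _ => Units.ext (refl2_mul ..))
    (Function.Involutive.toPerm (fun u => ⟨_, h1 u⟩) fun u => Subtype.ext (Units.ext ?_)) (fun _ => rfl)
    (fun u => Units.ext (congrArg θ ?_)) fun g => ?_
  · ext i j
    simp [reflG, refl2]
  · change sd ((reflG u.1).1 - 1) = _
    rw [h0, sd_apply, sd_apply, sum_comm]
    refine Fintype.sum_equiv Fin.revPerm _ _ fun i => Fintype.sum_equiv Fin.revPerm _ _ fun j => ?_
    exact if_congr (by simp only [Fin.revPerm_apply, Fin.val_rev]; omega) rfl rfl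
  obtain ⟨b, hb, π, b', hb', rfl⟩ := exists_bruhat g
  obtain ⟨D, t, ht, hD, hu, -⟩ := exists_diag hb
  obtain ⟨D', t', ht', hD', -, hu'⟩ := exists_diag hb'
  refine ⟨⟨_, hu⟩, D * pm F π * D', ⟨_, hu'⟩, by simp [mul_assoc], or_iff_not_imp_right.2 fun hn => ?_⟩
  have h2 : ∀ i j, (D * pm F π * D').1 i j = if π j = i then t (π j) * t' j else 0 := fun i j => by
    simp only [Units.val_mul, hD, hD', diagonal_mul, mul_diagonal, pm_apply]
    split_ifs with e <;> simp [e]
  generalize D * pm F π * D' = w at hn h2 ⊢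
  have h3 := layered (s := fun j => (π j).rev) (Fin.rev_injective.comp π.injective)
    (t := fun j => t (π j) * t' j) fun i j e e' => by
      have h4 := eq_of_char hθ (a := if (π i : ℕ) + 1 = π j then t (π i) * t' i else 0) (b := t (π j) * t' j)
        fun c => by_contra fun h5 => hn ⟨mkU (single (π i) (π j) (c * (t (π i) * t' i))) (.single (by
          simpa using e') _), mkU (single i j (c * (t (π j) * t' j))) (.single e.le _), Units.ext (by
            ext k l
            simp only [Units.val_mul, Subgroup.subtype_apply, mkU_val, add_mul, mul_add, one_mul, mul_one,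
              Matrix.add_apply, add_right_inj]
            by_cases e1 : k = π i <;> by_cases e2 : l = j
            · simp [e1, e2, h2, mul_comm, mul_left_comm]
            · simp [e1, e2, h2]
            · simp [e1, e2, h2, Ne.symm e1]
            · simp [e1, e2]), fun h6 => h5 (by simpa [lam_apply, sd_single, e] using congrArg Units.val h6)⟩
      split_ifs at h4 with h5
      · exact ⟨by simp only [Fin.val_rev]; omega, h4⟩
      · exact absurd h4.symm (mul_ne_zero (ht _) (ht' _))
  refine Units.ext (Matrix.ext fun i j => ?_)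
  change w.1 _ _ = _
  rw [h2, h2]
  by_cases e : π j = i
  · subst e
    rw [if_pos rfl, if_pos (Fin.rev_eq_iff.1 (h3 j).1), (h3 j).2]
  · rw [if_neg e, if_neg fun e' => e (by simpa [e'] using (h3 i.rev).1)]

end Cfsg.Lib.Cusp
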