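import Cfsg.Agent.Lib.Char.Basic

/-!
# Averaging operators and Gelfand's trick
-/

set_option autoImplicit false

namespace Cfsg.Lib.Cusp

open Module LinearMap Cfsg.Lib.Char Finset
open scoped BigOperators

variable {G N M : Type*} [Group G] [Group N] [Fintype N] [AddCommGroup M] [Module ℂ M]
  (ρ : Representation ℂ G M) (f : N →* G) (l : N →* ℂˣ)

/-- The averaging operator. -/
noncomputable def av : End ℂ M := (Fintype.card N : ℂ)⁻¹ • ∑ u, (l u : ℂ) • ρ (f u)

theorem av_mul (u : N) : (l u : ℂ) • (av ρ f l * ρ (f u)) = av ρ f l := by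
  rw [av, smul_mul_assoc, smul_comm, sum_mul, smul_sum]
  exact congrArg _ (Fintype.sum_equiv (Equiv.mulRight u) _ _ fun v => by simp [mul_smul, smul_comm (l u : ℂ)])

theorem mul_av (u : N) : (l u : ℂ) • (ρ (f u) * av ρ f l) = av ρ f l := by
  rw [av, mul_smul_comm, smul_comm, mul_sum, smul_sum]
  exact congrArg _ (Fintype.sum_equiv (Equiv.mulLeft u) _ _ fun v => by simp [mul_smul])

theorem av_idem : IsIdempotentElem (av ρ f l) := by
  change av ρ f l * av ρ f l = _
  nth_rw 2 [av]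
  simp only [mul_smul_comm, mul_sum, av_mul, sum_const, card_univ]
  rw [← Nat.cast_smul_eq_nsmul ℂ, inv_smul_smul₀ (Nat.cast_ne_zero.2 Fintype.card_ne_zero)]

theorem trace_mul_av (g : G) : trace ℂ M (ρ g * av ρ f l) = 𝔼 u, l u * ρ.character (g * f u) := by
  simp [av, mul_sum, Fintype.expect_eq_sum_div_card, div_eq_inv_mul, Representation.character]

variable {f l} {χ : G → ℂ}

theorem expect_mul_eq_zero (h : IsCharacter G χ) (h0 : 𝔼 u, l u * χ (f u) = 0) (g : G) :
    𝔼 u, l u * χ (g * f u) = 0 := by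
  obtain ⟨n, ρ, rfl⟩ := h
  have h1 := trace_mul_av ρ f l 1
  simp only [one_mul, map_one, h0] at h1
  rw [← trace_mul_av, (av_idem ρ f l).trace_eq_zero_iff.1 h1, mul_zero, map_zero]

/-- Gelfand's trick. -/
theorem gelfand (h : IsIrrCharacter G χ) (σ : G → G) (hσ : ∀ g g', σ (g * g') = σ g' * σ g) (s : N ≃ N)
    (h1 : ∀ u, σ (f u) = f (s u)) (h2 : ∀ u, l (s u) = l u)
    (h3 : ∀ g, ∃ u w u', g = f u * w * f u' ∧ (σ w = w ∨ ∃ v v', f v * w = w * f v' ∧ l v ≠ l v')) :
    𝔼 u, l u * χ (f u) = 0 ∨ 𝔼 u, l u * χ (f u) = 1 := by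
  obtain ⟨n, ρ, hρ, rfl⟩ := h
  set E := av ρ f l
  have hE : E * E = E := av_idem ρ f l
  let b : G → End ℂ _ := fun g => E * ρ g * E
  have b1 : ∀ u g, (l u : ℂ) • b (f u * g) = b g := fun u g => by
    simp only [b, map_mul, ← mul_assoc]
    rw [← smul_mul_assoc, ← smul_mul_assoc, av_mul]
  have b2 : ∀ u g, (l u : ℂ) • b (g * f u) = b g := fun u g => by
    simp only [b, map_mul, mul_assoc]
    rw [← mul_smul_comm, ← mul_smul_comm, mul_av]
  have b3 : ∀ w v v', f v * w = w * f v' → l v ≠ l v' → b w = 0 := fun w v v' e e' => by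
    have := sub_smul (l v : ℂ) (l v') (b (f v * w))
    rw [b1, e, b2, sub_self, smul_eq_zero, sub_eq_zero, Units.val_inj] at this
    rw [← b2 v', this.resolve_left e', smul_zero]
  have b4 : ∀ g, b (σ g) = b g := fun g => by
    obtain ⟨u, w, u', rfl, e⟩ := h3 g
    have : b (σ w) = b w := by
      rcases e with e | ⟨v, v', e, e'⟩
      · rw [e]
      · rw [b3 w v v' e e', b3 _ (s v') (s v) (by rw [← h1, ← h1, ← hσ, ← hσ, e]) (by rwa [h2, h2, ne_comm])]
    rw [← smul_right_inj (l u').ne_zero, b2, ← smul_right_inj (l u).ne_zero, b1, hσ, hσ, h1, h1, ← h2 u',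
      b1, ← h2 u, b2, this]
  have b5 : ∀ g g', b g * b g' = (Fintype.card N : ℂ)⁻¹ • ∑ u, (l u : ℂ) • b (g * f u * g') := fun g g' => by
    calc b g * b g' = E * ρ g * (E * E) * ρ g' * E := by simp only [b, mul_assoc]
      _ = _ := by
        rw [hE]
        nth_rw 2 [show E = _ • _ from rfl]
        simp only [b, map_mul, mul_assoc, mul_smul_comm, smul_mul_assoc, mul_sum, sum_mul]
  have b6 : ∀ g g', b g * b g' = b g' * b g := fun g g' => by
    conv_rhs => rw [← b4 g', ← b4 g]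
    rw [b5, b5, ← s.sum_comp (fun u => (l u : ℂ) • b (σ g' * f u * σ g))]
    simp only [← h1, ← hσ, b4, h2, ← mul_assoc]
  have b7 : ∀ w ≠ 0, ∀ S : Submodule ℂ _, (∀ g, ρ g w ∈ S) → ∀ v, v ∈ S := fun w hw S hS v => by
    have := (eq_bot_or_top_of_isIrreducible ρ (⨅ g, S.comap (ρ g)) fun g v hv => by
      simp only [Submodule.mem_iInf, Submodule.mem_comap, ← End.mul_apply, ← map_mul] at hv ⊢
      exact fun g' => hv _).resolve_left fun e => hw ((Submodule.mem_bot ℂ).1 (e ▸ (Submodule.mem_iInf _).2 hS))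
    simpa using (Submodule.mem_iInf _).1 (this.ge (Submodule.mem_top (x := v))) 1
  have b8 := trace_mul_av ρ f l 1
  simp only [one_mul, map_one] at b8
  rw [← b8, (IsIdempotentElem.isProj_range _ hE).trace]
  rcases eq_or_ne (LinearMap.range E) ⊥ with e | e
  · simp [e]
  have b0 : ∀ g w, E (ρ g (E w)) = b g (E w) := fun g w =>
    congrArg (fun x => E (ρ g x)) (LinearMap.congr_fun hE w).symm
  have b9 : ∀ g, ∃ c : ℂ, ∀ v, b g (E v) = c • E v := fun g => by
    haveI := Submodule.nontrivial_iff_ne_bot.2 e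
    obtain ⟨c, hc⟩ := End.exists_eigenvalue ((b g).restrict (p := LinearMap.range E) (q := LinearMap.range E)
      fun v _ => ⟨_, rfl⟩)
    obtain ⟨⟨_, w, rfl⟩, hw⟩ := hc.exists_hasEigenvector
    have h4 : b g (E w) = c • E w := congrArg Subtype.val hw.apply_eq_smul
    refine ⟨c, fun v => sub_eq_zero.1 (b7 (E w) (fun e => hw.2 (Subtype.ext e)) (ker (b g * E - c • E))
      (fun g' => sub_eq_zero.2 ?_) v)⟩
    change b g (E _) = c • E _
    rw [b0, ← End.mul_apply, b6, End.mul_apply, h4, map_smul]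
  obtain ⟨_, ⟨w, rfl⟩, hw⟩ := Submodule.exists_mem_ne_zero_of_ne_bot e
  rw [show LinearMap.range E = Submodule.span ℂ {E w} from le_antisymm ?_ (by simp), finrank_span_singleton hw]
  · simp
  rintro _ ⟨v, rfl⟩
  refine b7 _ hw ((Submodule.span ℂ {E w}).comap E) (fun g => ?_) v
  obtain ⟨c, hc⟩ := b9 g
  exact Submodule.mem_span_singleton.2 ⟨c, by rw [← hc, b0]⟩

end Cfsg.Lib.Cusp
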