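import Cfsg.Agent.Lib.Cusp.Basic

/-!
# The Mackey formula for cuspidal first factors
-/

set_option autoImplicit false

namespace Cfsg.Lib.Cusp

open Module LinearMap Cfsg.Lib.GLC
open Submodule hiding fst snd
open Finset hiding range
open scoped ComplexConjugate BigOperators

universe u

variable {F : Type u} [Field F] {V A C : Type u} [AddCommGroup V] [Module F V] [AddCommGroup A]
  [Module F A] [AddCommGroup C] [Module F C]

theorem exists_graph {W : Submodule F (A × C)} (h : W.comap (inl F A C) = ⊥) :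
    ∃ s : C →ₗ[F] A, ∀ v ∈ W, s v.2 = v.1 := by
  obtain ⟨s, hs⟩ := (snd F A C ∘ₗ W.subtype).exists_leftInverse_of_injective (ker_eq_bot'.2 fun v hv => by
    have h1 : v.1 = (v.1.1, 0) := Prod.ext rfl hv
    have h2 : v.1.1 = 0 := (mem_bot F).1 (h ▸ (show (v.1.1, 0) ∈ W from h1 ▸ v.2))
    exact Subtype.ext (by rw [h1, h2]; rfl))
  exact ⟨fst F A C ∘ₗ W.subtype ∘ₗ s, fun v hv =>
    congrArg (fun z : W => z.1.1) (LinearMap.congr_fun hs ⟨v, hv⟩)⟩

theorem mem_graph {s : C →ₗ[F] A} {W : Submodule F C} {v : A × C} :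
    v ∈ W.map (s.prod LinearMap.id) ↔ v.2 ∈ W ∧ s v.2 = v.1 :=
  ⟨by rintro ⟨c, hc, rfl⟩; exact ⟨hc, rfl⟩, fun h => ⟨v.2, h.1, Prod.ext h.2 rfl⟩⟩

theorem ex_graph (x : End F A) {y : End F C} {W : Submodule F C} (h : ∀ c ∈ W, y c ∈ W) (s : C →ₗ[F] A)
    (Φ : C ⧸ W →ₗ[F] A) : Ex (tri x (Φ ∘ₗ W.mkQ + (s ∘ₗ y - x ∘ₗ s)) y) (W.map (s.prod LinearMap.id))
      (y.restrict h) (tri x Φ (W.mapQ W y h)) (s.prod LinearMap.id ∘ₗ W.subtype)
      ((fst F A C - s ∘ₗ snd F A C).prod (W.mkQ ∘ₗ snd F A C)) := by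
  refine ⟨fun _ _ e => Subtype.ext (congrArg Prod.snd e), fun v => ?_, by rw [range_comp, range_subtype],
    Submodule.ext fun v => ?_, fun c => by simp [(Quotient.mk_eq_zero W).2 c.2], fun v => ?_⟩
  · obtain ⟨c, hc⟩ := W.mkQ_surjective v.2
    exact ⟨(v.1 + s c, c), Prod.ext (by simp) hc⟩
  · rw [mem_graph]
    simp [sub_eq_zero, and_comm, eq_comm (a := v.1)]
  · simp
    abel

theorem ex_top (x : End F A) {y : End F C} {U : Submodule F C} (h : ∀ c ∈ U, y c ∈ U) (Φ : C →ₗ[F] A) :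
    Ex (tri x Φ y) (U.comap (snd F A C)) (tri x (Φ ∘ₗ U.subtype) (y.restrict h)) (U.mapQ U y h)
      (LinearMap.id.prodMap U.subtype) (U.mkQ ∘ₗ snd F A C) :=
  ⟨fun _ _ e => Prod.ext (congrArg Prod.fst e :) (Subtype.ext (congrArg Prod.snd e)),
    U.mkQ_surjective.comp snd_surjective, Submodule.ext fun v => ⟨by rintro ⟨w, rfl⟩; exact w.2.2,
      fun hv => ⟨(v.1, ⟨v.2, hv⟩), rfl⟩⟩, by rw [ker_comp, ker_mkQ], fun _ => rfl, fun _ => rfl⟩

theorem ex_inl (x : End F A) (Φ : C →ₗ[F] A) (y : End F C) :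
    Ex (tri x Φ y) (range (inl F A C)) x y (inl F A C) (snd F A C) :=
  ⟨inl_injective, snd_surjective, rfl, ker_snd .., by simp, by simp⟩

theorem eq_comap_snd {W : Submodule F (A × C)} (hW : W.comap (inl F A C) = ⊤) :
    W = (W.comap (inr F A C)).comap (snd F A C) := Submodule.ext fun v => by
  have : (v.1, 0) ∈ W := hW.ge (mem_top (x := v.1))
  rw [← add_mem_cancel_left (neg_mem this)]
  simp [Prod.add_def]

theorem card_hom [Finite F] [Finite A] [Finite C] :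
    Fintype.card (C →ₗ[F] A) = Nat.card F ^ (finrank F C * finrank F A) := by
  rw [← Nat.card_eq_fintype_card, natCard_eq_pow_finrank (K := F), finrank_linearMap]

variable [Finite F] [Finite V] [Finite A] [Finite C]

open Classical in
theorem sum_graph (x : End F A) (y : End F C) (H : (C →ₗ[F] A) → Submodule F (A × C) → ℂ)
    (H0 : ∀ W : Submodule F C, (∀ c ∈ W, y c ∈ W) → (C ⧸ W →ₗ[F] A) → ℂ)
    (h0 : ∀ Φ W, (¬ ∀ v ∈ W, tri x Φ y v ∈ W) → H Φ W = 0)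
    (h1 : ∀ W h (s : C →ₗ[F] A) (Φ : C ⧸ W →ₗ[F] A),
      H (Φ ∘ₗ W.mkQ + (s ∘ₗ y - x ∘ₗ s)) (W.map (s.prod LinearMap.id)) = H0 W h Φ) :
    𝔼 Φ, ∑ W with W.comap (inl F A C) = ⊥, H Φ W =
      ∑ W, if h : ∀ c ∈ W, y c ∈ W then 𝔼 Φ, H0 W h Φ else 0 := by
  have key : ∀ (W : Submodule F C) (s : C →ₗ[F] A), ∑ Φ, H Φ (W.map (s.prod LinearMap.id)) =
      if h : ∀ c ∈ W, y c ∈ W then ∑ Φ, H0 W h Φ else 0 := fun W s => by
    have h2 : ∀ Φ, H (Φ + (s ∘ₗ y - x ∘ₗ s)) (W.map (s.prod LinearMap.id)) ≠ 0 →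
        ∀ c ∈ W, y c ∈ W ∧ Φ c = 0 := fun Φ e c hc => by
      have := mem_graph.1 (of_not_not (mt (h0 _ _) e) (s c, c) (mem_graph.2 ⟨hc, rfl⟩))
      exact ⟨this.1, by simpa [add_sub_assoc', add_left_comm (x (s c))] using this.2⟩
    rw [← Equiv.sum_comp (Equiv.addRight (s ∘ₗ y - x ∘ₗ s))]
    split_ifs with h
    · refine (Fintype.sum_of_injective (· ∘ₗ W.mkQ) (fun _ _ e => linearMap_qext _ e) _ _
        (fun Φ e => by_contra fun e' => e ⟨W.liftQ Φ fun c hc => (h2 Φ e' c hc).2, rfl⟩)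
        fun Φ => (h1 W h s Φ).symm).symm
    · exact sum_eq_zero fun Φ _ => by_contra fun e => h fun c hc => (h2 Φ e c hc).1
  rw [expect_sum_comm, ← sum_fiberwise _ (Submodule.map (snd F A C))]
  refine sum_congr rfl fun W _ => ?_
  have h2 : ∀ s : W →ₗ[F] A, ∃ t : C →ₗ[F] A, range (s.prod W.subtype) = W.map (t.prod LinearMap.id) :=
    fun s => by
      obtain ⟨t, rfl⟩ := s.exists_extend
      exact ⟨t, by rw [← range_subtype W, ← range_comp, range_subtype]; rfl⟩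
  rw [← sum_bij (s := univ) (f := fun _ => (Fintype.card (C →ₗ[F] A) : ℂ)⁻¹ *
    if h : ∀ c ∈ W, y c ∈ W then ∑ Φ, H0 W h Φ else 0) (fun (s : W →ₗ[F] A) _ => range (s.prod W.subtype))
    (fun s _ => ?_) (fun s _ t _ e => LinearMap.ext fun c => ?_) (fun U hU => ?_) fun s _ => ?_]
  · split_ifs with h
    · have : (Nat.card F : ℂ) ≠ 0 := Nat.cast_ne_zero.2 Nat.card_pos.ne'
      simp only [sum_const, card_univ, Fintype.expect_eq_sum_div_card, card_hom, nsmul_eq_mul,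
        ← finrank_quotient_add_finrank W, add_mul, pow_add, Nat.cast_mul, Nat.cast_pow]
      field_simp
    · simp
  · obtain ⟨t, ht⟩ := h2 s
    simp only [ht, mem_filter, mem_univ, true_and, ← Submodule.map_comp, snd_prod, Submodule.map_id,
      and_true]
    exact (Submodule.eq_bot_iff _).2 fun a ha => by simpa using (mem_graph.1 ha).2.symm
  · obtain ⟨d, hd⟩ : (s c, c.1) ∈ range (t.prod W.subtype) := e ▸ ⟨c, rfl⟩
    obtain rfl : d = c := Subtype.ext (congrArg Prod.snd hd)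
    exact (congrArg Prod.fst hd).symm
  · simp only [mem_filter, mem_univ, true_and] at hU
    obtain ⟨hU, rfl⟩ := hU
    obtain ⟨s, hs⟩ := exists_graph hU
    refine ⟨s ∘ₗ Submodule.subtype _, mem_univ _, le_antisymm ?_ fun v hv =>
      ⟨⟨v.2, v, hv, rfl⟩, Prod.ext (hs v hv) rfl⟩⟩
    rintro _ ⟨⟨_, v, hv, rfl⟩, rfl⟩
    change (s v.2, v.2) ∈ U
    rwa [hs v hv]
  · obtain ⟨t, ht⟩ := h2 s
    rw [ht, Fintype.expect_eq_sum_div_card, key, div_eq_inv_mul]

/-- All proper parabolic restrictions vanish. -/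
def IsCusp (ρ : Ty F → ℂ) : Prop := ∀ (A C : Type u) [AddCommGroup A] [Module F A] [Finite A]
  [AddCommGroup C] [Module F C] [Finite C] [Nontrivial A] [Nontrivial C] (x : End F A) (y : End F C),
    𝔼 Φ, ρ (ty (tri x Φ y)) = 0

variable {ρ κ σ : Ty F → ℂ} {a : ℕ}

omit [Finite F] in
theorem IsCusp.add (h : IsCusp ρ) {T : Submodule F V} (h0 : T ≠ ⊥) (h1 : T ≠ ⊤) {f : End F V}
    (hf : ∀ v ∈ T, f v ∈ T) : 𝔼 η : V ⧸ T →ₗ[F] T, ρ (ty (f + T.subtype ∘ₗ η ∘ₗ T.mkQ)) = 0 := by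
  haveI := Submodule.nontrivial_iff_ne_bot.2 h0
  haveI := Submodule.Quotient.nontrivial_iff.2 h1
  obtain ⟨s, hs⟩ := T.mkQ.exists_rightInverse_of_surjective T.range_mkQ
  have h2 : ∀ z, T.mkQ (s z) = z := LinearMap.congr_fun hs
  let e : (T × (V ⧸ T)) ≃ₗ[F] V := .ofBijective (T.subtype.coprod s) ⟨ker_eq_bot.1 (ker_eq_bot'.2
    fun v hv => by
      have h3 : v.2 = 0 := by
        have := congrArg T.mkQ hv
        rwa [coprod_apply, map_add, h2, map_zero, mkQ_apply, subtype_apply,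
          (Quotient.mk_eq_zero T).2 v.1.2, zero_add] at this
      exact Prod.ext (by simpa [h3] using hv) h3), fun v => ⟨(⟨v - s (T.mkQ v), by
        rw [← Quotient.mk_eq_zero, ← mkQ_apply, map_sub, h2, sub_self]⟩, T.mkQ v), by simp⟩⟩
  rw [← h _ _ (f.restrict hf) (T.mapQ T f hf)]
  refine Fintype.expect_equiv (Equiv.addRight (codRestrict T (f ∘ₗ s - s ∘ₗ T.mapQ T f hf) fun z => ?_))
    _ _ fun η => congrArg ρ (ty_congr e fun v => ?_).symm
  · rw [← Quotient.mk_eq_zero, ← mkQ_apply, LinearMap.sub_apply, map_sub, comp_apply, comp_apply, h2,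
      sub_eq_zero, mkQ_apply, ← mapQ_apply (h := hf), ← mkQ_apply, h2]
  · have h3 := h2 v.2
    rw [mkQ_apply] at h3
    have h4 : ∀ w, e w = w.1 + s w.2 := fun _ => rfl
    simp [h4, h3, (Quotient.mk_eq_zero T).2 v.1.2]
    abel

omit [Finite F] in
theorem expect_comp {B : Type u} [AddCommGroup B] [Module F B] [Finite B] {i : B →ₗ[F] C}
    (hi : Function.Injective i) (f : (B →ₗ[F] A) → ℂ) : 𝔼 Φ : C →ₗ[F] A, f (Φ ∘ₗ i) = 𝔼 Φ, f Φ := by
  obtain ⟨l, hl⟩ := i.exists_leftInverse_of_injective (ker_eq_bot.2 hi)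
  exact expect_surj (lcomp F A i).toAddMonoidHom
    (fun s => ⟨s ∘ₗ l, (LinearMap.comp_assoc ..).trans (by rw [hl, comp_id])⟩) f

theorem expect_hterm_top (h : IsCusp ρ) [Nontrivial A] (x : End F A) (y : End F C)
    {W : Submodule F (A × C)} (hW : W.comap (inl F A C) = ⊤) (h1 : W ≠ range (inl F A C)) :
    𝔼 Φ, hterm ρ σ (tri x Φ y) W = 0 := by
  obtain ⟨U, rfl⟩ : ∃ U : Submodule F C, W = U.comap (snd F A C) := ⟨_, eq_comap_snd hW⟩
  haveI := Submodule.nontrivial_iff_ne_bot.2 (show U ≠ ⊥ from fun e => h1 (by simp [e, range_inl]))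
  by_cases hU : ∀ c ∈ U, y c ∈ U
  · simp only [(ex_top x hU _).hterm, ← expect_mul]
    rw [(expect_comp U.injective_subtype fun Φ => ρ (ty (tri x Φ (y.restrict hU)))).trans (h _ _ _ _),
      zero_mul]
  · exact expect_eq_zero fun Φ _ => hterm_of_not fun e => hU fun c hc => e (0, c) hc

theorem sum_hterm_mid (h : IsCusp κ) (y : End F C) {W : Submodule F (A × C)}
    (h0 : W.comap (inl F A C) ≠ ⊥) (h1 : W.comap (inl F A C) ≠ ⊤) :
    ∑ x : End F A, (𝔼 Φ, hterm ρ σ (tri x Φ y) W) * conj (κ (ty x)) = 0 := by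
  set T := W.comap (inl F A C)
  have key : ∀ η : (A × C) ⧸ W →ₗ[F] T, 𝔼 x : End F A, 𝔼 Φ, hterm ρ σ (tri x Φ y) W * conj (κ (ty x)) =
      𝔼 x : End F A, 𝔼 Φ, hterm ρ σ (tri x Φ y) W *
        conj (κ (ty (x + T.subtype ∘ₗ (η ∘ₗ T.mapQ W (inl F A C) le_rfl) ∘ₗ T.mkQ))) := fun η => by
    symm
    refine Fintype.expect_equiv (Equiv.addRight (T.subtype ∘ₗ (η ∘ₗ T.mapQ W (inl F A C) le_rfl) ∘ₗ T.mkQ))
      _ _ fun x => Fintype.expect_equiv (Equiv.addRight (T.subtype ∘ₗ η ∘ₗ W.mkQ ∘ₗ inr F A C)) _ _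
        fun Φ => congrArg (· * _) ?_
    have h2 : ∀ v, tri (x + T.subtype ∘ₗ (η ∘ₗ T.mapQ W (inl F A C) le_rfl) ∘ₗ T.mkQ)
        (Φ + T.subtype ∘ₗ η ∘ₗ W.mkQ ∘ₗ inr F A C) y v = tri x Φ y v + ((η (W.mkQ v) : A), 0) := fun v => by
      conv_rhs => rw [show W.mkQ v = W.mkQ (v.1, 0) + W.mkQ (0, v.2) by rw [← map_add]; simp]
      simp [add_add_add_comm]
    have h3 : ∀ v ∈ W, W.mkQ v = 0 := fun v => (Quotient.mk_eq_zero W).2
    by_cases hW : ∀ v ∈ W, tri x Φ y v ∈ W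
    · rw [hterm, dif_pos hW]
      exact (Ex.hterm ⟨W.injective_subtype, W.mkQ_surjective, W.range_subtype, W.ker_mkQ,
        fun v => by simp [h2, h3 _ v.2], fun v => by
          simp only [Equiv.coe_addRight, h2, map_add, h3 ((η (W.mkQ v) : A), 0) (η _).2, add_zero]
          rfl⟩).symm
    · rw [hterm_of_not hW, hterm_of_not fun e => hW fun v hv => by simpa [h2, h3 _ hv] using e v hv]
  simp only [expect_mul]
  rw [← Fintype.card_mul_expect, ← Fintype.expect_const (ι := (A × C) ⧸ W →ₗ[F] T) (𝔼 x, _),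
    expect_congr rfl fun η _ => key η, expect_comm, expect_eq_zero fun x _ => ?_, mul_zero]
  rw [expect_comm]
  refine expect_eq_zero fun Φ _ => ?_
  by_cases hW : ∀ v ∈ W, tri x Φ y v ∈ W
  · rw [← mul_expect, ← conj_expect, (expect_comp
      (ker_eq_bot.1 (by rw [ker_mapQ, mkQ_map_self])) fun η => κ (ty (x + T.subtype ∘ₗ η ∘ₗ T.mkQ))).trans
        (h.add h0 h1 fun v hv => show (x v, 0) ∈ W by simpa using hW (v, 0) hv)]
    simp
  · simp [hterm_of_not hW]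

/-- The Heisenberg commutation relation. -/
theorem adj_hall (hρ : IsCusp ρ) (hκ : IsCusp κ) (ha : 0 < a) :
    adj a κ (hall ρ σ) = ip a ρ κ • σ + hall ρ (adj a κ σ) := ext_ty fun n y => by
  classical
  haveI : Nonempty (Fin a) := ⟨⟨0, ha⟩⟩
  have h1 : ∀ x : End F (Fin a → F), 𝔼 Φ, ∑ W with W.comap (inl F _ _) = ⊤, hterm ρ σ (tri x Φ y) W =
      ρ (ty x) * σ (ty y) := fun x => by
    rw [expect_sum_comm, sum_eq_single_of_mem (range (inl F _ _)) (by simp [Submodule.eq_top_iff'])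
      fun W hW e => expect_hterm_top hρ x y (by simpa using hW) e]
    simp only [(ex_inl x _ y).hterm, Fintype.expect_const]
  have h2 := fun x : End F (Fin a → F) => sum_graph x y (fun Φ => hterm ρ σ (tri x Φ y))
    (fun W h Φ => ρ (ty (y.restrict h)) * σ (ty (tri x Φ (W.mapQ W y h)))) (fun _ _ => hterm_of_not)
    fun W h s Φ => (ex_graph x h s Φ).hterm
  have h3 : ∀ x : End F (Fin a → F), 𝔼 Φ, ∑ W, hterm ρ σ (tri x Φ y) W = ρ (ty x) * σ (ty y) +
      ((∑ W, if h : ∀ c ∈ W, y c ∈ W then 𝔼 Φ, ρ (ty (y.restrict h)) * σ (ty (tri x Φ (W.mapQ W y h)))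
        else 0) + ∑ W with W.comap (inl F _ _) ≠ ⊤ ∧ W.comap (inl F _ _) ≠ ⊥,
          𝔼 Φ, hterm ρ σ (tri x Φ y) W) := fun x => by
    rw [← h1, ← h2, ← expect_sum_comm, ← expect_add_distrib, ← expect_add_distrib]
    refine expect_congr rfl fun Φ _ => ?_
    simp only [sum_filter, ← sum_add_distrib]
    refine sum_congr rfl fun W _ => ?_
    by_cases h4 : W.comap (inl F _ _) = ⊥
    · simp [h4]
    · by_cases h5 : W.comap (inl F _ _) = ⊤ <;> simp [h4, h5]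
  simp only [Pi.add_apply, Pi.smul_apply, adj_ty, hall_ty, h3, add_mul, sum_add_distrib, sum_mul, ip,
    smul_eq_mul]
  rw [sum_comm (s := univ) (t := filter _ _), sum_eq_zero (s := filter _ _) fun W hW =>
    sum_hterm_mid hκ y (mem_filter.1 hW).2.2 (mem_filter.1 hW).2.1, add_zero, mul_add, sum_comm, mul_assoc,
    sum_mul]
  congr 1
  · simp only [mul_right_comm]
  · rw [mul_sum]
    refine sum_congr rfl fun W _ => ?_
    rw [hterm]
    split_ifs with h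
    · rw [adj_ty, mul_left_comm, mul_sum _ _ (ρ _)]
      simp only [← mul_expect, mul_assoc]
    · simp

end Cfsg.Lib.Cusp
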