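import Cfsg.Agent.Lib.Cusp.Whit
import Cfsg.Agent.Lib.Cusp.GG

/-!
# The Whittaker functional as an average over the unitriangular group
-/

set_option autoImplicit false

namespace Cfsg.Lib.Cusp

open Module LinearMap Cfsg.Lib.GLC Cfsg.Lib.Char Cfsg.Lib.Linear
open Submodule hiding fst snd
open Finset hiding range
open scoped ComplexConjugate BigOperators MatrixGroups

universe u

variable {F : Type u} [Field F] {C : Type u} [AddCommGroup C] [Module F C] {k n : ℕ}

/-- The part above the diagonal. -/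
def su (M : Matrix (Fin n) (Fin n) F) : Matrix (Fin n) (Fin n) F := .of fun i j => if i < j then M i j else 0

/-- The last coordinate. -/
def lastc (v : Fin n → F) : F := ∑ i : Fin n, if (i : ℕ) + 1 = n then v i else 0

theorem lastc_succ (v : Fin (n + 1) → F) : lastc v = v (Fin.last n) := by
  simp [lastc, Fin.sum_univ_castSucc, Nat.ne_of_lt]

theorem sd_succ (M : Matrix (Fin (n + 1)) (Fin (n + 1)) F) :
    sd M = sd (M.submatrix Fin.castSucc Fin.castSucc) + lastc fun i => M i.castSucc (Fin.last n) := by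
  simp [sd_apply, lastc, Fin.sum_univ_castSucc, sum_add_distrib, (Nat.lt_succ_of_lt (Fin.is_lt _)).ne']

/-- Splitting off the last coordinate. -/
def splitE : ((Fin (k + 1) → F) × C) ≃ₗ[F] (Fin k → F) × (F × C) where
  toFun v := (fun i => v.1 i.castSucc, v.1 (Fin.last k), v.2)
  invFun w := (Fin.snoc w.1 w.2.1, w.2.2)
  map_add' _ _ := rfl
  map_smul' _ _ := rfl
  left_inv v := Prod.ext (Fin.snoc_init_self v.1) rfl
  right_inv w := by simp

/-- Splitting off the last row and column. -/
def splitH : Matrix (Fin (k + 1)) (Fin (k + 1)) F × (C →ₗ[F] Fin (k + 1) → F) →+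
    (C →ₗ[F] F) × Matrix (Fin k) (Fin k) F × (F × C →ₗ[F] Fin k → F) where
  toFun p := (proj (Fin.last k) ∘ₗ p.2, p.1.submatrix Fin.castSucc Fin.castSucc,
    (toSpanSingleton F _ fun i => p.1 i.castSucc (Fin.last k)).coprod (funLeft F F Fin.castSucc ∘ₗ p.2))
  map_zero' := Prod.ext (by simp) (Prod.ext rfl (LinearMap.ext fun _ => funext fun _ => by simp))
  map_add' _ _ := Prod.ext rfl (Prod.ext rfl (LinearMap.ext fun _ => funext fun _ => by simp; ring))

theorem splitH_surjective : Function.Surjective (splitH (F := F) (C := C) (k := k)) := fun p =>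
  ⟨(.of (Fin.snoc (fun i => Fin.snoc (p.2.1 i) (p.2.2 (1, 0) i)) 0),
    pi (Fin.snoc (α := fun _ => C →ₗ[F] F) (fun i => proj i ∘ₗ p.2.2 ∘ₗ inr F F C) p.1)),
    Prod.ext (by ext; simp [splitH]) (Prod.ext (by ext; simp [splitH]) (by ext <;> simp [splitH]))⟩

variable [Fintype F] [Finite C] {θ : AddChar F ℂ} {π : Ty F → ℂ}

theorem wh_eq (y : End F C) (c : C) : wh θ π k C y c =
    𝔼 p : Matrix (Fin k) (Fin k) F × (C →ₗ[F] Fin k → F),
      θ (sd p.1 + lastc (p.2 c)) * π (ty (tri (Matrix.toLin' (1 + su p.1)) p.2 y)) := by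
  induction k generalizing C with
  | zero =>
    rw [← Fintype.expect_const (ι := Matrix (Fin 0) (Fin 0) F × (C →ₗ[F] Fin 0 → F)) (wh θ π 0 C y c)]
    refine expect_congr rfl fun p _ => ?_
    rw [ty_congr (g := y) (LinearEquiv.uniqueProd (R := F) (M := C) (M₂ := Fin 0 → F)) fun _ => rfl]
    simp [wh, sd_apply, lastc]
  | succ k ih =>
    simp only [wh, ih, mul_expect]
    rw [← expect_product', univ_product_univ, ← expect_surj _ splitH_surjective]
    refine expect_congr rfl fun p _ => ?_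
    rw [sd_succ, lastc_succ, θ.map_add_eq_mul _ (p.2 c _), mul_comm _ (θ (p.2 c _)), mul_assoc,
      ← ty_congr (f := tri (Matrix.toLin' (1 + su p.1)) p.2 y) splitE fun v => ?_]
    · simp [splitH]
    · refine Prod.ext (funext fun i => ?_) (Prod.ext ?_ rfl) <;>
        simp [splitE, splitH, su, Matrix.mulVec, dotProduct, Fin.sum_univ_castSucc, add_assoc, mul_comm,
          (Fin.le_last _).not_gt]

theorem mult_eq [Fintype (UU n F)] : mult θ n π =
    𝔼 u : UU n F, lam θ u * π (ty (Matrix.GeneralLinearGroup.toLin u.1).1) := by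
  let N : AddSubgroup (Matrix (Fin n) (Fin n) F) :=
    ⟨⟨⟨{M | Raises Fin.val 1 M}, Raises.add⟩, Raises.zero⟩, Raises.neg⟩
  let h : Matrix (Fin n) (Fin n) F × (PUnit.{u + 1} →ₗ[F] Fin n → F) →+ N := AddMonoidHom.mk'
    (fun p => ⟨su p.1, fun i j e => if_neg (by omega)⟩) fun p q => Subtype.ext (by
      ext i j
      simp only [su, Prod.fst_add, AddSubgroup.coe_add, Matrix.add_apply, Matrix.of_apply]
      split_ifs <;> simp)
  let e : N ≃ UU n F := ⟨fun M => mkU M.1 M.2, fun u => ⟨u.1.1 - 1, u.2⟩, fun M => by simp,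
    fun u => Subtype.ext (Units.ext (by simp))⟩
  cases nonempty_fintype N
  rw [mult, wh_eq, ← Fintype.expect_equiv e _ _ fun _ => rfl, ← expect_surj h fun M => ⟨(M.1, 0),
    Subtype.ext (Matrix.ext fun i j => ite_eq_left_iff.2 fun e => (M.2 i j (by omega)).symm)⟩]
  refine expect_congr rfl fun p _ => congrArg₂ _ (congrArg θ ?_) (congrArg π (ty_congr
    (LinearEquiv.prodUnique (R := F) (M := Fin n → F) (M₂ := PUnit.{u + 1})) fun v => ?_))
  · rw [map_zero, show lastc (0 : Fin n → F) = 0 by simp [lastc], add_zero]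
    exact sd_congr fun i j e1 => by simp [e, h, su, show i < j by omega]
  · simpa [e, h] using map_zero p.2

theorem Ch.mult_nat (h : Ch π) (θ : AddChar F ℂ) (n : ℕ) : ∃ m : ℕ, mult θ n π = m := by
  cases nonempty_fintype (UU n F)
  obtain ⟨m, hm⟩ := ((isCharacter_hom (lam θ)).mul ((h (Fin n → F)).comp
    (Matrix.GeneralLinearGroup.toLin.toMonoidHom.comp (UU n F).subtype))).exists_inner_eq_nat isCharacter_one
  exact ⟨m, by rw [mult_eq, ← hm, classInner_one_right, Fintype.expect_eq_sum_div_card, div_eq_inv_mul,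
    Nat.card_eq_fintype_card]; rfl⟩

variable (F n) in
/-- The irreducible characters of the general linear group. -/
abbrev Irr := IrrCharacter (End F (Fin n → F))ˣ

theorem mult_lift (hθ : θ ≠ 1) (χ : Irr F n) : mult θ n (lift χ.1) = 0 ∨ mult θ n (lift χ.1) = 1 := by
  cases nonempty_fintype (UU n F)
  simp only [mult_eq, lift_irr]
  exact gelfand_gl hθ (χ.2.comp_equiv Matrix.GeneralLinearGroup.toLin)

theorem sum_mult (θ : AddChar F ℂ) (n : ℕ) : ∑ χ : Irr F n, χ.1 1 * mult θ n (lift χ.1) =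
    ∏ i ∈ Finset.range n, ((Nat.card F : ℂ) ^ (i + 1) - 1) := by
  cases nonempty_fintype (UU n F)
  have h1 : ∀ g, ∑ χ : Irr F n, χ.1 1 * χ.1 g = cG F n * classIndicator 1 g := fun g => by
    have := sum_irr_mul_conj g 1
    rw [Subgroup.centralizer_eq_top_iff_subset.2 (by simp), Subgroup.card_top] at this
    rw [cG, ← this]
    refine sum_congr rfl fun χ _ => ?_
    rw [← χ.2.apply_inv, inv_one, mul_comm]
  have h2 := (UU n F).card_mul_index
  rw [index_unipGL_fin, Nat.card_congr Matrix.GeneralLinearGroup.toLin.toEquiv] at h2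
  simp only [mult_eq, lift_irr, mul_expect, ← expect_sum_comm, mul_left_comm _ (lam θ _ : ℂ), ← mul_sum, h1]
  rw [Fintype.expect_eq_sum_div_card, sum_eq_single_of_mem 1 (mem_univ _) fun u _ hu => by
    rw [classIndicator_of_not_isConj fun e => hu (by simpa using e.symm), mul_zero, mul_zero], cG, ← h2]
  simp [classIndicator_of_isConj, Nat.one_le_pow, Fintype.card_pos]

end Cfsg.Lib.Cusp
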