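import Cfsg.Agent.Lib.Cusp.Mult
import Cfsg.Agent.Lib.Cusp.Free

/-!
# Cuspidal supports, and the number of constituents of the Gelfand-Graev character
-/

set_option autoImplicit false

namespace Cfsg.Lib.Cusp

open Module LinearMap Cfsg.Lib.GLC Cfsg.Lib.Char
open Submodule hiding fst snd
open Finset hiding range
open scoped ComplexConjugate BigOperators

universe u

theorem sum_ne_zero_of_nat {ι : Type*} [Fintype ι] {f : ι → ℂ} (h : ∀ i, ∃ k : ℕ, f i = k) {i : ι}
    (hi : f i ≠ 0) : ∑ i, f i ≠ 0 := by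
  choose k hk using h
  simp only [hk, ← Nat.cast_sum, Nat.cast_ne_zero] at hi ⊢
  exact fun e => hi (sum_eq_zero_iff.1 e i (mem_univ _))

theorem exists_nat_mul {a b : ℂ} (ha : ∃ k : ℕ, a = k) (hb : ∃ k : ℕ, b = k) : ∃ k : ℕ, a * b = k :=
  let ⟨k, hk⟩ := ha; let ⟨l, hl⟩ := hb; ⟨k * l, by rw [hk, hl, Nat.cast_mul]⟩

variable {F : Type u} [Field F] {A B C : Type u} [AddCommGroup A] [Module F A] [AddCommGroup B] [Module F B]
  [AddCommGroup C] [Module F C] [Finite A] [Finite B] [Finite C] {φ ψ π : Ty F → ℂ} {a b n k : ℕ}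

/-- The unipotent radical. -/
def rad : Multiplicative (C →ₗ[F] A) →* (End F (A × C))ˣ := MonoidHom.toHomUnits
  ⟨⟨fun Φ => tri 1 Φ.toAdd 1, tri_one⟩, fun _ _ => by rw [tri_mul, mul_one, mul_one, mul_comm]; rfl⟩

theorem expect_rad (G : End F (A × C) → ℂ) : 𝔼 Φ, G (rad Φ).1 = 𝔼 Φ : C →ₗ[F] A, G (tri 1 Φ 1) :=
  Fintype.expect_equiv Multiplicative.toAdd _ _ fun _ => rfl

theorem Ch.expect_nat (h : Ch π) : ∃ m : ℕ, 𝔼 Φ : C →ₗ[F] A, π (ty (tri 1 Φ 1)) = m := by
  obtain ⟨m, hm⟩ := ((h (A × C)).comp rad).exists_inner_eq_nat isCharacter_one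
  exact ⟨m, by rw [← hm, classInner_one_right, ← expect_rad fun x : End F (A × C) => π (ty x), Fintype.expect_eq_sum_div_card,
    div_eq_inv_mul, Nat.card_eq_fintype_card]⟩

theorem Ch.expect_tri (h : Ch π) (hs : Sup n π) (h0 : 𝔼 Φ : C →ₗ[F] A, π (ty (tri 1 Φ 1)) = 0)
    (x : End F A) (y : End F C) : 𝔼 Φ, π (ty (tri x Φ y)) = 0 := by
  by_contra e
  obtain ⟨Φ, -, h1⟩ := exists_ne_zero_of_expect_ne_zero e
  obtain ⟨⟨x, rfl⟩, y, rfl⟩ := isUnit_tri.1 (hs _ _ h1).1
  have := expect_mul_eq_zero (f := rad) (l := 1) (h (A × C))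
    (by simpa [expect_rad fun x : End F (A × C) => π (ty x)] using h0) (Par.hom (x, 0, y))
  simp only [MonoidHom.one_apply, Units.val_one, one_mul, Units.val_mul] at this
  rw [expect_rad fun z => π (ty (_ * z))] at this
  refine e (.trans (Fintype.expect_equiv ((LinearEquiv.refl F C).arrowCongr
    (GeneralLinearGroup.toLinearEquiv x)).toEquiv _ _ fun Φ => ?_).symm this)
  refine congrArg (fun x => π (ty x)) ((tri_mul ..).trans ?_)
  rw [mul_one, mul_one, zero_comp, add_zero]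
  rfl

variable [Finite F]

theorem expect_rs (x : End F A) (y : End F B) (z : End F C) :
    𝔼 Φ, rs z π (ty (tri x Φ y)) = 𝔼 Ψ, rs (tri y Ψ z) π (ty x) := by
  simp only [rs_ty]
  rw [← expect_product', ← expect_product', univ_product_univ, univ_product_univ]
  refine Fintype.expect_equiv ⟨fun p => (snd F A B ∘ₗ p.2, p.1.coprod (fst F A B ∘ₗ p.2)),
    fun p => (p.2 ∘ₗ inl F B C, (p.2 ∘ₗ inr F B C).prod p.1),
    fun p => Prod.ext (by simp) (LinearMap.ext fun _ => by simp), fun p => by simp⟩ _ _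
      fun p => congrArg π (ty_congr (LinearEquiv.prodAssoc F A B C) fun w => by simp [add_assoc])

theorem Sup.eq_of_ip (h : Sup a φ) (h1 : ip n φ ψ ≠ 0) : n = a := by
  obtain ⟨x, -, hx⟩ := exists_ne_zero_of_sum_ne_zero (right_ne_zero_of_mul h1)
  simpa using (h _ _ (left_ne_zero_of_mul hx)).2

theorem Sup.parseval (h : Sup n φ) : ip n φ ψ = ∑ χ : Irr F n, ip n φ (lift χ.1) * ip n (lift χ.1) ψ := by
  rw [← ip_sum, ← h.eq_sum]

theorem Sup.ip_hall_sum (h : Sup b ψ) :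
    ip n (Cusp.hall φ ψ) π = ∑ σ : Irr F b, ip b ψ (lift σ.1) * ip n (Cusp.hall φ (lift σ.1)) π := by
  rw [← ip_sum]
  nth_rw 1 [h.eq_sum]
  exact congrArg (ip n · π) ((map_sum (hallL φ) ..).trans (sum_congr rfl fun _ _ => hall_smul ..))

theorem Sup.mult_eq (h : Sup n φ) (θ : AddChar F ℂ) :
    mult θ n φ = ∑ χ : Irr F n, ip n φ (lift χ.1) * mult θ n (lift χ.1) := by
  nth_rw 1 [h.eq_sum]
  exact wh_sum ..

theorem lift_one (χ : Irr F n) (h : finrank F C = n) : lift χ.1 (ty (1 : End F C)) = χ.1 1 := by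
  rw [← lift_irr]
  exact congrArg _ (ty_congr (.ofFinrankEq _ _ (by simpa)) fun _ => rfl)

theorem ip_rs_one (h : Sup (a + finrank F C) π) (h1 : Sup a φ) : ip a (rs (1 : End F C) π) φ =
    ∑ σ : Irr F (finrank F C), conj (ip (a + finrank F C) (hall φ (lift σ.1)) π) * σ.1 1 := by
  rw [ip_rs, h.adj.eq_sum]
  simp only [Finset.sum_apply, Pi.smul_apply, smul_eq_mul, lift_one _ rfl, ip_hall h1, conj_ip]

theorem ch_irr (χ : Irr F n) : Ch (lift χ.1) := ch_lift χ.2.isCharacter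

theorem ip_nat (ρ : Irr F a) (σ : Irr F b) (χ : Irr F n) :
    ∃ k : ℕ, ip n (hall (lift ρ.1) (lift σ.1)) (lift χ.1) = k := by
  by_cases h : n = a + b
  · subst h
    exact exists_ip_hall sup_lift sup_lift (ch_irr _) (ch_irr _) (ch_irr _)
  · exact ⟨0, by_contra fun e => h ((sup_lift.hall sup_lift).eq_of_ip (by simpa using e))⟩

theorem exists_support (χ : Irr F n) (hn : 0 < n) : ∃ (a b : ℕ) (ρ : Irr F a) (σ : Irr F b), 0 < a ∧
    IsCusp (lift ρ.1) ∧ ip n (hall (lift ρ.1) (lift σ.1)) (lift χ.1) ≠ 0 := by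
  classical
  have h0 : ∃ a, 0 < a ∧ ∃ (C : Type u) (_ : AddCommGroup C) (_ : Module F C) (_ : Finite C),
      rs (1 : End F C) (lift χ.1) (ty (1 : End F (Fin a → F))) ≠ 0 := ⟨n, hn, PUnit, inferInstance,
    inferInstance, inferInstance, by
      rw [rs_ty, expect_congr rfl (g := fun _ => χ.1 1) fun Φ _ => by
        rw [Subsingleton.elim Φ 0, tri_one, lift_one _ (by simp [finrank_zero_of_subsingleton])], Fintype.expect_const]
      exact χ.2.apply_one_ne_zero⟩
  obtain ⟨h1, C, _, _, _, h2⟩ := Nat.find_spec h0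
  have h3 := fun m => Nat.find_min h0 (m := m)
  generalize Nat.find h0 = a at h1 h2 h3
  obtain rfl : a + finrank F C = n := by
    rw [rs_ty] at h2
    obtain ⟨Φ, -, h⟩ := exists_ne_zero_of_expect_ne_zero h2
    simpa using (sup_lift _ _ h).2
  have h4 := (sup_lift (χ := χ.1).rs (1 : End F C)).eq_sum
  have h5 : ∀ ρ : Irr F a, ∃ k : ℕ, ip a (rs (1 : End F C) (lift χ.1)) (lift ρ.1) = k := fun ρ => by
    choose k hk using fun σ => ip_nat ρ σ χ
    choose l hl using fun σ : Irr F (finrank F C) => σ.2.isCharacter.exists_apply_one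
    exact ⟨∑ σ, k σ * l σ, by simp [ip_rs_one sup_lift sup_lift, hk, hl]⟩
  rw [h4, Finset.sum_apply] at h2
  obtain ⟨ρ, -, hρ⟩ := exists_ne_zero_of_sum_ne_zero h2
  replace hρ := left_ne_zero_of_mul hρ
  obtain ⟨σ, -, hσ⟩ := exists_ne_zero_of_sum_ne_zero ((ip_rs_one sup_lift sup_lift).symm.trans_ne hρ)
  refine ⟨a, _, ρ, σ, h1, fun A B _ _ _ _ _ _ _ _ => (ch_irr ρ).expect_tri sup_lift (by_contra fun e => ?_),
    fun e => hσ (by rw [e, map_zero, zero_mul])⟩
  obtain ⟨Φ, -, h⟩ := exists_ne_zero_of_expect_ne_zero e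
  have h6 : finrank F A + finrank F B = a := by simpa using (sup_lift _ _ h).2
  refine sum_ne_zero_of_nat (fun ρ => exists_nat_mul (h5 ρ) (ch_irr ρ).expect_nat) (mul_ne_zero hρ e) ?_
  have h7 := fun μ => (congrFun h4 μ).symm
  simp only [Finset.sum_apply, Pi.smul_apply, smul_eq_mul] at h7
  simp only [mul_expect, ← expect_sum_comm, h7, expect_rs]
  refine expect_eq_zero fun Ψ _ => (rs_ty ..).trans ((ch_irr χ).expect_tri sup_lift (by_contra fun e => ?_) _ _)
  refine h3 (finrank F A) (by have := finrank_pos (R := F) (M := B); omega)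
    ⟨finrank_pos, B × C, inferInstance, inferInstance, inferInstance, ?_⟩
  rwa [← ty_congr (f := (1 : End F A)) (.ofFinrankEq _ _ (by simp)) fun _ => rfl, rs_ty]

end Cfsg.Lib.Cusp
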