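import Cfsg.Agent.Lib.Cusp.Adj

/-!
# Whittaker functionals
-/

set_option autoImplicit false

namespace Cfsg.Lib.Cusp

open Module LinearMap Cfsg.Lib.GLC Cfsg.Lib.Char
open Submodule hiding fst snd
open Finset hiding range
open scoped ComplexConjugate BigOperators

universe u

variable {F : Type u} [Field F] [Finite F] {V A B C D : Type u} [AddCommGroup V] [Module F V]
  [AddCommGroup A] [Module F A] [AddCommGroup B] [Module F B] [AddCommGroup C] [Module F C]
  [AddCommGroup D] [Module F D] [Finite V] [Finite A] [Finite B] [Finite C] [Finite D]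

/-- The average of `π` against `θ` over the matrices with `k` unitriangular rows above `y`. -/
noncomputable def wh (θ : AddChar F ℂ) (π : Ty F → ℂ) :
    ℕ → ∀ (C : Type u) [AddCommGroup C] [Module F C] [Finite C], End F C → C → ℂ
  | 0, _, _, _, _, y, _ => π (ty y)
  | k + 1, C, _, _, _, y, c => 𝔼 φ : C →ₗ[F] F, θ (φ c) * wh θ π k (F × C) (tri 1 φ y) (1, 0)

variable {θ : AddChar F ℂ} {π ρ σ : Ty F → ℂ} {k a b n : ℕ}

theorem wh_congr {y : End F C} {y' : End F D} (e : C ≃ₗ[F] D) (h : ∀ v, e (y v) = y' (e v)) (c : C) :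
    wh θ π k C y c = wh θ π k D y' (e c) := by
  induction k generalizing C D with
  | zero => exact congrArg π (ty_congr e h)
  | succ k ih =>
    refine Fintype.expect_equiv (e.arrowCongr (.refl F F)).toEquiv _ _ fun φ => ?_
    rw [ih ((LinearEquiv.refl F F).prodCongr e) (y' := tri 1 (e.arrowCongr (.refl F F) φ) y')
      fun v => by simp [h]]
    simp

theorem wh_sum {ι : Type*} (s : Finset ι) (t : ι → ℂ) (π : ι → Ty F → ℂ) (y : End F C) (c : C) :
    wh θ (∑ i ∈ s, t i • π i) k C y c = ∑ i ∈ s, t i * wh θ (π i) k C y c := by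
  induction k generalizing C with
  | zero => simp [wh]
  | succ k ih => simp only [wh, ih, mul_sum, expect_sum_comm, mul_expect, mul_left_comm]

theorem Sup.wh (h : Sup n π) {y : End F C} {c : C} (h1 : wh θ π k C y c ≠ 0) : k + finrank F C = n := by
  induction k generalizing C with
  | zero => simpa using (h _ _ h1).2
  | succ k ih =>
    obtain ⟨φ, -, h2⟩ := exists_ne_zero_of_expect_ne_zero h1
    simpa [add_assoc] using ih (right_ne_zero_of_mul h2)

theorem expect_char (hθ : θ ≠ 1) {W : Submodule F C} {c : C} (hc : c ∉ W) (G : (W →ₗ[F] F) → ℂ) :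
    𝔼 φ : C →ₗ[F] F, θ (φ c) * G (φ ∘ₗ W.subtype) = 0 := by
  obtain ⟨l, h1, h2⟩ := W.exists_le_ker_of_notMem hc
  obtain ⟨t, ht⟩ : ∃ t, θ t ≠ 1 := by simpa [DFunLike.ext_iff] using hθ
  have h3 : 𝔼 φ : C →ₗ[F] F, θ (φ c) * G (φ ∘ₗ W.subtype) =
      θ t * 𝔼 φ : C →ₗ[F] F, θ (φ c) * G (φ ∘ₗ W.subtype) := by
    rw [mul_expect]
    refine (Fintype.expect_equiv (Equiv.addLeft ((t / l c) • l)) _ _ fun φ => ?_).symm
    have : l ∘ₗ W.subtype = 0 := LinearMap.ext fun v => h2 v.2
    simp [add_comp, smul_comp, this, h1, θ.map_add_eq_mul, mul_assoc]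
  exact (mul_left_eq_self₀.1 h3.symm).resolve_left ht

open Classical in
/-- One term of the Leibniz rule. -/
noncomputable def wterm (θ : AddChar F ℂ) (ρ σ : Ty F → ℂ) (k : ℕ) (y : End F C) (c : C)
    (W : Submodule F C) : ℂ :=
  if h : ∀ v ∈ W, y v ∈ W then ρ (ty (y.restrict h)) * wh θ σ k _ (W.mapQ W y h) (W.mkQ c) +
    if hc : c ∈ W then ∑ i ∈ Finset.range k, wh θ ρ (i + 1) W (y.restrict h) ⟨c, hc⟩ *
      wh θ σ (k - (i + 1)) _ (W.mapQ W y h) 0 else 0 else 0

section
variable {f : End F V} {W : Submodule F V} {x : End F B} {y : End F D} {i : B →ₗ[F] V} {p : V →ₗ[F] D}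

theorem Ex.wterm_of_notMem (h : Ex f W x y i p) {v : V} (hv : v ∉ W) :
    wterm θ ρ σ k f v W = ρ (ty x) * wh θ σ k D y (p v) := by
  obtain ⟨e1, -, h3⟩ := h.sub
  obtain ⟨e2, h4, h5⟩ := h.quot
  rw [wterm, dif_pos h.inv, dif_neg hv, add_zero, ty_congr e1 h3, wh_congr e2 h5, h4]

theorem Ex.wterm_of_mem (h : Ex f W x y i p) (v : B) : wterm θ ρ σ k f (i v) W =
    ∑ j ∈ Finset.range (k + 1), wh θ ρ j B x v * wh θ σ (k - j) D y 0 := by
  obtain ⟨e1, h2, h3⟩ := h.sub
  obtain ⟨e2, h4, h5⟩ := h.quot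
  have h6 : i v ∈ W := h.range.le ⟨v, rfl⟩
  rw [wterm, dif_pos h.inv, dif_pos h6, sum_range_succ', add_comm, wh_congr e2 h5, h4,
    mem_ker.1 (h.ker.ge h6), ← ty_congr e1 h3]
  refine congrArg₂ _ (sum_congr rfl fun j _ => ?_) rfl
  rw [wh_congr e1 h3, wh_congr e2 h5, map_zero]
  exact congrArg (wh θ ρ (j + 1) W _ · * _) (Subtype.ext (h2 v).symm)

end

/-- The Leibniz rule. -/
theorem wh_hall (hθ : θ ≠ 1) {y : End F C} {c : C} (hc : y c = c) :
    wh θ (hall ρ σ) k C y c = ∑ W, wterm θ ρ σ k y c W := by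
  classical
  induction k generalizing C with
  | zero => simp [wh, hall_ty, hterm, wterm]
  | succ k ih =>
    have h1 := sum_graph 1 y (fun φ W => θ (φ c) * wterm θ ρ σ k (tri 1 φ y) (1, 0) W)
      (fun W h φ => ρ (ty (y.restrict h)) * (θ (φ (W.mkQ c)) * wh θ σ k _ (tri 1 φ (W.mapQ W y h)) (1, 0)))
      (fun φ W h => by rw [wterm, dif_neg h, mul_zero]) fun W h s φ => by
        rw [(ex_graph 1 h s φ).wterm_of_notMem (by simp [mem_graph]), mul_left_comm]
        simp [hc]
    have h2 : ∀ G : Submodule F (F × C) → ℂ, ∑ W with ¬ W.comap (inl F F C) = ⊥, G W =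
        ∑ U : Submodule F C, G (U.comap (snd F F C)) := fun G => (sum_bij (fun U _ => U.comap (snd F F C))
      (fun U _ => mem_filter.2 ⟨mem_univ _, fun e => one_ne_zero ((mem_bot F).1 (e.le
        (show (1 : F) ∈ _ from U.zero_mem)))⟩) (fun _ _ _ _ e => comap_injective_of_surjective snd_surjective e)
      (fun W hW => ⟨_, mem_univ _, (eq_comap_snd ((eq_bot_or_eq_top _).resolve_left
        (mem_filter.1 hW).2)).symm⟩) fun _ _ => rfl).symm
    simp only [wh, ih (show tri (1 : End F F) _ y (1, 0) = (1, 0) by simp), mul_sum]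
    simp only [← sum_filter_add_sum_filter_not univ (fun W : Submodule F (F × C) => W.comap (inl F F C) = ⊥),
      expect_add_distrib, h1, h2, expect_sum_comm univ univ, ← sum_add_distrib]
    refine sum_congr rfl fun U _ => ?_
    rw [wterm]
    split_ifs with h3 h4
    · have h5 := fun φ => (ex_top 1 h3 φ).wterm_of_mem (θ := θ) (ρ := ρ) (σ := σ) (k := k) ((1 : F), 0)
      simp only [prodMap_apply, id_apply, map_zero] at h5
      simp only [h5, mul_sum, expect_sum_comm, ← mul_expect, wh, ← mul_assoc, ← expect_mul,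
        Nat.add_sub_add_right]
      refine congrArg₂ _ (by simp only [mul_expect, mul_assoc]) (sum_congr rfl fun j _ => ?_)
      congr 1
      exact expect_comp U.injective_subtype fun φ => θ (φ ⟨c, h4⟩) * wh θ ρ j _ (tri 1 φ _) (1, 0)
    · have h5 := fun φ => (ex_top 1 h3 φ).wterm_of_mem (θ := θ) (ρ := ρ) (σ := σ) (k := k) ((1 : F), 0)
      simp only [prodMap_apply, id_apply, map_zero] at h5
      simp only [h5, ← mul_expect, wh]
      exact congrArg _ (expect_char hθ h4 fun φ => ∑ j ∈ Finset.range (k + 1),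
        wh θ ρ j _ (tri 1 φ (y.restrict h3)) (1, 0) * wh θ σ (k - j) _ (U.mapQ U y h3) 0)
    · rw [zero_add]
      exact expect_eq_zero fun φ _ => by
        rw [wterm, dif_neg fun e => h3 fun v hv => e (0, v) hv, mul_zero]

/-- The multiplicity in the Gelfand-Graev character. -/
noncomputable def mult (θ : AddChar F ℂ) (k : ℕ) (π : Ty F → ℂ) : ℂ := wh θ π k PUnit 1 0

theorem wh_subsingleton [Subsingleton C] (y : End F C) (c : C) : wh θ π k C y c = mult θ k π :=
  (wh_congr (.ofSubsingleton _ _) (fun _ => Subsingleton.elim _ _) c).trans rfl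

theorem mult_hall (hθ : θ ≠ 1) (h : Sup a ρ) : mult θ (a + b) (hall ρ σ) = mult θ a ρ * mult θ b σ := by
  have h1 : Ex (1 : End F PUnit.{u + 1}) ⊤ (1 : End F PUnit.{u + 1}) (1 : End F PUnit.{u + 1})
      LinearMap.id LinearMap.id :=
    ⟨Function.injective_id, Function.surjective_id, Subsingleton.elim _ _, Subsingleton.elim _ _,
      fun _ => rfl, fun _ => rfl⟩
  rw [mult, wh_hall hθ rfl, Fintype.sum_subsingleton _ ⊤]
  refine (h1.wterm_of_mem 0).trans ((sum_eq_single_of_mem a (by simp) fun j _ hj => ?_).trans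
    (by rw [Nat.add_sub_cancel_left]; rfl))
  exact mul_eq_zero_of_left (by_contra fun e => hj (by simpa [finrank_zero_of_subsingleton] using h.wh e)) _

theorem sum_wh (hθ : θ ≠ 1) [Fintype C] (y : End F C) :
    ∑ c, wh θ π (k + 1) C y c = wh θ π k (F × C) (tri 1 0 y) (1, 0) := by
  have h1 : ∀ φ : C →ₗ[F] F, φ ≠ 0 → ∑ c, θ (φ c) = 0 := fun φ hφ => by
    cases nonempty_fintype F
    rw [← Fintype.card_mul_expect]
    refine mul_eq_zero_of_right _ ((expect_surj φ.toAddMonoidHom (surjective_iff_ne_zero.2 hφ) θ).trans ?_)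
    rw [Fintype.expect_eq_sum_div_card, AddChar.sum_eq_zero_of_ne_one hθ, zero_div]
  simp only [wh, ← expect_sum_comm, ← sum_mul]
  rw [Fintype.expect_eq_sum_div_card, sum_eq_single_of_mem 0 (mem_univ _) fun φ _ hφ => by
    rw [h1 φ hφ, zero_mul], card_hom, finrank_self, mul_one, ← natCard_eq_pow_finrank]
  have : (Fintype.card C : ℂ) ≠ 0 := Nat.cast_ne_zero.2 Fintype.card_ne_zero
  simp [mul_div_cancel_left₀ _ this]

theorem expect_wh (x : End F A) (y : End F C) (v : A) :
    𝔼 Φ, wh θ π k (A × C) (tri x Φ y) (v, 0) = wh θ (rs y π) k A x v := by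
  induction k generalizing A with
  | zero => exact (rs_ty y x).symm
  | succ k ih =>
    simp only [wh, ← ih, mul_expect]
    rw [← expect_product', ← expect_product', univ_product_univ, univ_product_univ]
    refine Fintype.expect_equiv ⟨fun p => (p.2 ∘ₗ inl F A C, (p.2 ∘ₗ inr F A C).prod p.1),
      fun p => (snd F F A ∘ₗ p.2, p.1.coprod (fst F F A ∘ₗ p.2)), fun p => by simp, fun p => Prod.ext (by simp) (LinearMap.ext fun _ => by simp)⟩
        _ _ fun p => congrArg _ (wh_congr (LinearEquiv.prodAssoc F F A C).symm (fun w => ?_) _)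
    refine Prod.ext (Prod.ext ?_ rfl) rfl
    change w.1 + p.2 w.2 = w.1 + p.2 (w.2.1, 0) + p.2 (0, w.2.2)
    rw [add_assoc, ← map_add, Prod.mk_add_mk, add_zero, zero_add]

theorem wh_zero (y : End F C) : wh θ π k C y 0 = mult θ k (rs y π) := by
  rw [mult, ← expect_wh, ← Fintype.expect_const (ι := C →ₗ[F] PUnit.{u + 1}) (wh θ π k C y 0)]
  exact expect_congr rfl fun Φ _ => (wh_congr (y := tri 1 Φ y) (y' := y)
    (LinearEquiv.uniqueProd (R := F) (M := C) (M₂ := PUnit.{u + 1})) (fun _ => rfl) (0, 0)).symm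

/-- Restriction to the mirabolic subgroup, one step. -/
theorem wh_one (hθ : θ ≠ 1) {c : C} (hc : c ≠ 0) : wh θ π k (F × C) 1 (1, 0) =
    mult θ (k + 1) (rs (1 : End F C) π) + (Nat.card C - 1) * wh θ π (k + 1) C 1 c := by
  classical
  cases nonempty_fintype C
  rw [← tri_one, ← sum_wh hθ, ← add_sum_erase _ _ (mem_univ 0), wh_zero, sum_congr rfl
    (g := fun _ => wh θ π (k + 1) C 1 c) fun d hd => ?_]
  · simp [Fintype.card_pos]
  · obtain ⟨e, he⟩ := exists_linearEquiv_restrict_eq ((LinearEquiv.toSpanNonzeroSingleton F C c hc).symm.trans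
      (LinearEquiv.toSpanNonzeroSingleton F C d (mem_erase.1 hd).1))
    have := he (LinearEquiv.toSpanNonzeroSingleton F C c hc 1)
    rw [LinearEquiv.trans_apply, LinearEquiv.symm_apply_apply, LinearEquiv.toSpanNonzeroSingleton_one,
      LinearEquiv.toSpanNonzeroSingleton_one] at this
    exact (show d = e c from this) ▸ (wh_congr (y := 1) (y' := 1) e (fun _ => rfl) c).symm

end Cfsg.Lib.Cusp
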